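import Mathlib
import Cfsg.Agent.H554.RGIdx

/-!
# Cascades of orthogonal roots and the indices of parabolic subgroups (helper581)

`Casc cs h X l g` : a family `g : Fin m → roots` of pairwise orthogonal positive roots, spanning, with
`|X (g k)| = -1` modulo `l`, such that the positive roots made negative by the reflection in `g k` are orthogonal to `g j`, `j < k`.

* `dvd_index_casc` : then `l` divides the index of every proper parabolic subgroup `P_{orth ω}`, `ω ≠ 0` dominant.
-/

set_option autoImplicit false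
set_option linter.unusedSectionVars false

namespace Cfsg.Agent.H581.RGC

open CoxeterSystem Cfsg.Agent.ChevalleyStructure.CoxeterGeom Cfsg.Agent.Tits.Roots Cfsg.Agent.Tits.Core
  Cfsg.Agent.Tits.Exchange Cfsg.Agent.Nodes.Reps Cfsg.Agent.Nodes.BNOf Cfsg.Agent.Nodes.StabComb
  Cfsg.Agent.Nodes.Bruhat Cfsg.Agent.Nodes.OppDec Cfsg.Agent.Nodes.LeviDec Cfsg.Agent.Nodes.NormalForm
  Cfsg.Agent.Nodes.CardSup Cfsg.Agent.Nodes.Unique Cfsg.Agent.Nodes.Coroot Cfsg.Agent.Nodes.SubComb
  Cfsg.Agent.Nodes.NormX Cfsg.Agent.H554.RG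

variable {I W S : Type*} [Fintype I] [DecidableEq I] [Group W] [Group S] {M : CoxeterMatrix I}
  {cs : CoxeterSystem M W} {A : I → I → ℤ} {h : IsCartan M A} {p : ℕ} {T : Subgroup S} {n : I → S}
  {X : (I → ℤ) → Subgroup S}

/-- a cascade of orthogonal roots -/
structure Casc (cs : CoxeterSystem M W) (h : IsCartan M A) (X : (I → ℤ) → Subgroup S) (l : ℕ) {m : ℕ}
    (g : Fin m → I → ℤ) : Prop where
  root : ∀ k, IsRoot cs h (g k)
  pos : ∀ k, 0 ≤ g k
  orth : ∀ j k, j ≠ k → cpr cs h (g j) (g k) = 0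
  full : ∀ x : I → ℤ, (∀ k, cpr cs h x (g k) = 0) → x = 0
  tri : ∀ k, ∀ x, IsRoot cs h x → 0 ≤ x → ¬ 0 ≤ x - cpr cs h x (g k) • g k → ∀ j, j < k → cpr cs h x (g j) = 0
  size : ∀ k, ((Nat.card (X (g k)) : ℕ) : ZMod l) = -1

omit [Group S] in
/-- Parseval: if `x` and `y` have only the coefficient at `k` in common then `(x, y) ≠ 0`. -/
theorem form_ne_zero [Fintype W] {m : ℕ} {g : Fin m → I → ℤ} (root : ∀ k, IsRoot cs h (g k))
    (orth : ∀ j k, j ≠ k → cpr cs h (g j) (g k) = 0) (full : ∀ x : I → ℤ, (∀ k, cpr cs h x (g k) = 0) → x = 0)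
    {x y : I → ℤ} {k : Fin m} (hx : ∀ j, j < k → cpr cs h x (g j) = 0) (hy : ∀ j, k < j → cpr cs h y (g j) = 0)
    (hxk : cpr cs h x (g k) ≠ 0) (hyk : cpr cs h y (g k) ≠ 0) : form cs h x y ≠ 0 := by
  have horth : ∀ j k, j ≠ k → form cs h (g j) (g k) = 0 := fun j k hjk =>
    (cpr_zero_iff cs h _ (root k)).1 (orth j k hjk)
  -- `2 x = ∑ ⟨x, g_j^∨⟩ g_j`
  have h2 : (2 : ℤ) • x = ∑ j, cpr cs h x (g j) • g j := by
    rw [← sub_eq_zero]
    apply full
    intro i
    rw [cpr_zero_iff cs h _ (root i)]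
    have e1 : form cs h (∑ j, cpr cs h x (g j) • g j) (g i) = cpr cs h x (g i) * form cs h (g i) (g i) := by
      have : ∀ s : Finset (Fin m), form cs h (∑ j ∈ s, cpr cs h x (g j) • g j) (g i) =
          ∑ j ∈ s, cpr cs h x (g j) * form cs h (g j) (g i) := by
        intro s
        induction s using Finset.induction_on with
        | empty =>
          rw [Finset.sum_empty, Finset.sum_empty]
          have h0 := form_smul_left cs h 0 (0 : I → ℤ) (g i)
          rwa [zero_smul, zero_mul] at h0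
        | insert a s ha ih => rw [Finset.sum_insert ha, Finset.sum_insert ha, form_add_left, ih, form_smul_left]
      rw [this, Finset.sum_eq_single i]
      · intro j _ hji
        rw [horth j i hji, mul_zero]
      · intro hi
        exact absurd (Finset.mem_univ i) hi
    have e2 : form cs h ((2 : ℤ) • x - ∑ j, cpr cs h x (g j) • g j) (g i) =
        2 * form cs h x (g i) - form cs h (∑ j, cpr cs h x (g j) • g j) (g i) := by
      rw [sub_eq_add_neg, form_add_left, form_neg_left, form_smul_left]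
      ring
    rw [e2, e1, two_form_cpr cs h x (root i), sub_self]
  have h3 : 2 * form cs h x y = cpr cs h x (g k) * form cs h (g k) y := by
    have e1 : form cs h ((2 : ℤ) • x) y = ∑ j, cpr cs h x (g j) * form cs h (g j) y := by
      rw [h2]
      have : ∀ s : Finset (Fin m), form cs h (∑ j ∈ s, cpr cs h x (g j) • g j) y =
          ∑ j ∈ s, cpr cs h x (g j) * form cs h (g j) y := by
        intro s
        induction s using Finset.induction_on with
        | empty =>
          rw [Finset.sum_empty, Finset.sum_empty]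
          have h0 := form_smul_left cs h 0 (0 : I → ℤ) y
          rwa [zero_smul, zero_mul] at h0
        | insert a s ha ih => rw [Finset.sum_insert ha, Finset.sum_insert ha, form_add_left, ih, form_smul_left]
      exact this _
    rw [form_smul_left] at e1
    rw [e1, Finset.sum_eq_single k]
    · intro j _ hjk
      rcases lt_or_gt_of_ne hjk with h4 | h4
      · rw [hx j h4, zero_mul]
      · rw [form_comm, (cpr_zero_iff cs h y (root j)).1 (hy j h4), mul_zero]
    · intro hk
      exact absurd (Finset.mem_univ k) hk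
  intro h0
  rw [h0, mul_zero] at h3
  rcases mul_eq_zero.1 h3.symm with h4 | h4
  · exact hxk h4
  · rw [form_comm] at h4
    exact hyk ((cpr_zero_iff cs h y (root k)).2 h4)

variable (R : RGD cs h p T n X)

include R

/-- The effect of a reflection on `Fm`. -/
theorem Fm_refl [Finite S] [Fintype W] {l : ℕ} (hsq : ∀ x, IsRoot cs h x → ((Nat.card (X x) : ℕ) : ZMod l) ^ 2 = 1)
    {γ β : I → ℤ} (hγr : IsRoot cs h γ) (hγ0 : 0 ≤ γ) {t : W} (ht : ∀ x, rep cs h t x = x - cpr cs h x γ • γ)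
    (hne : ∀ x, IsRoot cs h x → 0 ≤ x → ¬ 0 ≤ rep cs h t x → form cs h x β ≠ 0) :
    ((Fm cs h X β : ℕ) : ZMod l) * ((Fm cs h X (rep cs h t β) : ℕ) : ZMod l) = ((Nat.card (X γ) : ℕ) : ZMod l) := by
  classical
  set a : (I → ℤ) → ZMod l := fun x => ((Nat.card (X x) : ℕ) : ZMod l) with ha
  have hasq : ∀ x, IsRoot cs h x → a x * a x = 1 := fun x hx => by rw [← sq]; exact hsq x hx
  have htγ : rep cs h t γ = -γ := by
    rw [ht, cpr_self cs h hγr, two_smul]; abel
  have htt : ∀ x, rep cs h t (rep cs h t x) = x := by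
    intro x
    rw [ht x, map_sub, map_smul, htγ, ht x, smul_neg]; abel
  have htform : ∀ x y, form cs h (rep cs h t x) y = form cs h x (rep cs h t y) := by
    intro x y
    have h1 := form_rep cs h t (rep cs h t x) y
    rw [htt] at h1
    exact h1.symm
  have hat : ∀ x, IsRoot cs h x → a (rep cs h t x) = a x := fun x hx => by
    simp only [ha]; rw [card_X_rep R t hx]
  have han : ∀ x, IsRoot cs h x → a (-x) = a x := fun x hx => by
    simp only [ha]; rw [card_X_neg R hx]
  have hP : ∀ {x}, x ∈ posF cs h ↔ IsRoot cs h x ∧ 0 ≤ x := mem_posF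
  have hneg : ∀ {x}, IsRoot cs h x → ¬ 0 ≤ x → 0 ≤ -x := fun {x} hx h0 =>
    neg_nonneg.mpr (hx.pos_or_neg.resolve_left h0)
  have hnotneg : ∀ {x : I → ℤ}, IsRoot cs h x → 0 ≤ x → ¬ 0 ≤ -x := fun {x} hx h0 h1 =>
    hx.ne_zero (le_antisymm (neg_nonneg.mp h1) h0)
  -- the four products
  have e1 : ((Fm cs h X β : ℕ) : ZMod l) =
      (∏ x ∈ (posF cs h).filter (fun x => form cs h x β < 0 ∧ 0 ≤ rep cs h t x), a x) *
      ∏ x ∈ (posF cs h).filter (fun x => form cs h x β < 0 ∧ ¬ 0 ≤ rep cs h t x), a x := by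
    unfold Fm
    rw [Nat.cast_prod, ← Finset.prod_filter_mul_prod_filter_not _ (fun x => 0 ≤ rep cs h t x),
      Finset.filter_filter, Finset.filter_filter]
  have e2 : ((Fm cs h X (rep cs h t β) : ℕ) : ZMod l) =
      (∏ x ∈ (posF cs h).filter (fun x => form cs h x (rep cs h t β) < 0 ∧ 0 ≤ rep cs h t x), a x) *
      ∏ x ∈ (posF cs h).filter (fun x => form cs h x (rep cs h t β) < 0 ∧ ¬ 0 ≤ rep cs h t x), a x := by
    unfold Fm
    rw [Nat.cast_prod, ← Finset.prod_filter_mul_prod_filter_not _ (fun x => 0 ≤ rep cs h t x),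
      Finset.filter_filter, Finset.filter_filter]
  have e3 : (∏ x ∈ (posF cs h).filter (fun x => form cs h x (rep cs h t β) < 0 ∧ 0 ≤ rep cs h t x), a x) =
      ∏ x ∈ (posF cs h).filter (fun x => form cs h x β < 0 ∧ 0 ≤ rep cs h t x), a x := by
    refine Finset.prod_nbij' (fun x => rep cs h t x) (fun x => rep cs h t x) ?_ ?_ ?_ ?_ ?_
    · intro x hx
      obtain ⟨h1, h2, h3⟩ := Finset.mem_filter.1 hx
      obtain ⟨h4, h5⟩ := hP.1 h1
      refine Finset.mem_filter.2 ⟨hP.2 ⟨h4.act t, h3⟩, ?_, ?_⟩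
      · rw [htform]; exact h2
      · rw [htt]; exact h5
    · intro x hx
      obtain ⟨h1, h2, h3⟩ := Finset.mem_filter.1 hx
      obtain ⟨h4, h5⟩ := hP.1 h1
      refine Finset.mem_filter.2 ⟨hP.2 ⟨h4.act t, h3⟩, ?_, ?_⟩
      · rw [← htform, htt]; exact h2
      · rw [htt]; exact h5
    · intro x _; exact htt x
    · intro x _; exact htt x
    · intro x hx
      exact (hat x (hP.1 (Finset.mem_filter.1 hx).1).1).symm
  have e4 : (∏ x ∈ (posF cs h).filter (fun x => form cs h x (rep cs h t β) < 0 ∧ ¬ 0 ≤ rep cs h t x), a x) =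
      ∏ x ∈ (posF cs h).filter (fun x => 0 < form cs h x β ∧ ¬ 0 ≤ rep cs h t x), a x := by
    refine Finset.prod_nbij' (fun x => -rep cs h t x) (fun x => -rep cs h t x) ?_ ?_ ?_ ?_ ?_
    · intro x hx
      obtain ⟨h1, h2, h3⟩ := Finset.mem_filter.1 hx
      obtain ⟨h4, h5⟩ := hP.1 h1
      refine Finset.mem_filter.2 ⟨hP.2 ⟨(h4.act t).neg, hneg (h4.act t) h3⟩, ?_, ?_⟩
      · rw [form_neg_left, htform]; omega
      · rw [map_neg, htt]; exact hnotneg h4 h5
    · intro x hx
      obtain ⟨h1, h2, h3⟩ := Finset.mem_filter.1 hx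
      obtain ⟨h4, h5⟩ := hP.1 h1
      refine Finset.mem_filter.2 ⟨hP.2 ⟨(h4.act t).neg, hneg (h4.act t) h3⟩, ?_, ?_⟩
      · rw [form_neg_left, ← htform, htt]; omega
      · rw [map_neg, htt]; exact hnotneg h4 h5
    · intro x _
      rw [map_neg, htt, neg_neg]
    · intro x _
      rw [map_neg, htt, neg_neg]
    · intro x hx
      have h1 := (hP.1 (Finset.mem_filter.1 hx).1).1
      change a x = a (-rep cs h t x)
      rw [han _ (h1.act t), hat x h1]
  have e5 : (∏ x ∈ (posF cs h).filter (fun x => form cs h x β < 0 ∧ 0 ≤ rep cs h t x), a x) *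
      (∏ x ∈ (posF cs h).filter (fun x => form cs h x β < 0 ∧ 0 ≤ rep cs h t x), a x) = 1 := by
    rw [← Finset.prod_mul_distrib]
    exact Finset.prod_eq_one fun x hx => hasq x (hP.1 (Finset.mem_filter.1 hx).1).1
  have e6 : (∏ x ∈ (posF cs h).filter (fun x => form cs h x β < 0 ∧ ¬ 0 ≤ rep cs h t x), a x) *
      (∏ x ∈ (posF cs h).filter (fun x => 0 < form cs h x β ∧ ¬ 0 ≤ rep cs h t x), a x) =
      ∏ x ∈ (posF cs h).filter (fun x => ¬ 0 ≤ rep cs h t x), a x := by
    rw [← Finset.prod_union]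
    · congr 1
      ext x
      rw [Finset.mem_union, Finset.mem_filter, Finset.mem_filter, Finset.mem_filter]
      constructor
      · rintro (⟨h1, -, h2⟩ | ⟨h1, -, h2⟩) <;> exact ⟨h1, h2⟩
      · rintro ⟨h1, h2⟩
        obtain ⟨h3, h4⟩ := hP.1 h1
        rcases lt_or_gt_of_ne (hne x h3 h4 h2) with h5 | h5
        · exact Or.inl ⟨h1, h5, h2⟩
        · exact Or.inr ⟨h1, h5, h2⟩
    · rw [Finset.disjoint_left]
      intro x hx hx'
      have h1 := (Finset.mem_filter.1 hx).2.1
      have h2 := (Finset.mem_filter.1 hx').2.1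
      omega
  have e7 : ∏ x ∈ (posF cs h).filter (fun x => ¬ 0 ≤ rep cs h t x), a x = a γ := by
    have hγN : γ ∈ (posF cs h).filter (fun x => ¬ 0 ≤ rep cs h t x) := by
      refine Finset.mem_filter.2 ⟨hP.2 ⟨hγr, hγ0⟩, ?_⟩
      rw [htγ]; exact hnotneg hγr hγ0
    rw [← Finset.mul_prod_erase _ _ hγN]
    have hone : ∏ x ∈ ((posF cs h).filter (fun x => ¬ 0 ≤ rep cs h t x)).erase γ, a x = 1 := by
      refine Finset.prod_involution (fun x _ => -rep cs h t x) ?_ ?_ ?_ ?_
      · intro x hx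
        have h1 := (hP.1 (Finset.mem_filter.1 (Finset.mem_of_mem_erase hx)).1).1
        rw [han _ (h1.act t), hat x h1, hasq x h1]
      · intro x hx _ he
        have hxF := Finset.mem_of_mem_erase hx
        have hxγ : x ≠ γ := Finset.ne_of_mem_erase hx
        obtain ⟨h1, h2⟩ := Finset.mem_filter.1 hxF
        obtain ⟨hxr, hx0⟩ := hP.1 h1
        -- `2 x = ⟨x, γ⟩ γ`
        have h3 : (2 : ℤ) • x = cpr cs h x γ • γ := by
          have h4 := ht x
          have h5 : rep cs h t x = -x := neg_eq_iff_eq_neg.mp he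
          rw [h5] at h4
          have h6 : -x + cpr cs h x γ • γ = x := by rw [h4]; abel
          rw [two_smul]
          calc x + x = x + (-x + cpr cs h x γ • γ) := by rw [h6]
            _ = cpr cs h x γ • γ := by abel
        have h7 : 0 < cpr cs h x γ := by
          by_contra hcon
          push Not at hcon
          apply hxr.ne_zero
          refine le_antisymm ?_ hx0
          intro k
          have h3' := congrFun h3 k
          rw [Pi.smul_apply, Pi.smul_apply, smul_eq_mul, smul_eq_mul] at h3'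
          have h4 := mul_nonpos_of_nonpos_of_nonneg hcon (hγ0 k)
          simp only [Pi.zero_apply]
          omega
        exact hxγ (eq_of_ray hxr hγr two_pos h7 h3)
      · intro x hx
        have hxF := Finset.mem_of_mem_erase hx
        have hxγ : x ≠ γ := Finset.ne_of_mem_erase hx
        obtain ⟨h1, h2⟩ := Finset.mem_filter.1 hxF
        obtain ⟨hxr, hx0⟩ := hP.1 h1
        refine Finset.mem_erase.2 ⟨?_, Finset.mem_filter.2 ⟨hP.2 ⟨(hxr.act t).neg, hneg (hxr.act t) h2⟩, ?_⟩⟩
        · intro he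
          apply hxγ
          have h3 : rep cs h t x = -γ := by rw [← he, neg_neg]
          have h4 := htt x
          rw [h3, map_neg, htγ, neg_neg] at h4
          exact h4.symm
        · rw [map_neg, htt]; exact hnotneg hxr hx0
      · intro x _
        rw [map_neg, htt, neg_neg]
    rw [hone, mul_one]
  calc ((Fm cs h X β : ℕ) : ZMod l) * ((Fm cs h X (rep cs h t β) : ℕ) : ZMod l)
      = ((∏ x ∈ (posF cs h).filter (fun x => form cs h x β < 0 ∧ 0 ≤ rep cs h t x), a x) *
        (∏ x ∈ (posF cs h).filter (fun x => form cs h x β < 0 ∧ 0 ≤ rep cs h t x), a x)) *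
        ((∏ x ∈ (posF cs h).filter (fun x => form cs h x β < 0 ∧ ¬ 0 ≤ rep cs h t x), a x) *
        (∏ x ∈ (posF cs h).filter (fun x => 0 < form cs h x β ∧ ¬ 0 ≤ rep cs h t x), a x)) := by
        rw [e1, e2, e3, e4]; ring
    _ = a γ := by rw [e5, e6, e7, one_mul]

/-- **All parabolic indices are divisible by `l`.** -/
theorem dvd_index_casc [Finite S] [Finite W] (hG : GG cs h T X = ⊤) {l m : ℕ} {g : Fin m → I → ℤ}
    (hsq : ∀ x, IsRoot cs h x → ((Nat.card (X x) : ℕ) : ZMod l) ^ 2 = 1) (hC : Casc cs h X l g) {ω : I → ℤ}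
    (hd : Dom A ω) (hω : ω ≠ 0) : l ∣ (PJ cs h T X (orth cs h ω)).index := by
  classical
  have : Fintype W := Fintype.ofFinite W
  rw [← CharP.cast_eq_zero_iff (ZMod l) l, index_orth R hG hd, Nat.cast_sum]
  set O : Finset (I → ℤ) := Finset.univ.image (fun w : W => rep cs h w ω) with hO
  -- the reflections
  have ht : ∀ k, ∃ t : W, ∀ x, rep cs h t x = x - cpr cs h x (g k) • g k := by
    intro k
    obtain ⟨w, i, e⟩ := hC.root k
    refine ⟨rfl' cs w i, fun x => ?_⟩
    rw [rep_rfl'_eq, ← e]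
  choose t ht using ht
  -- the last index
  have hO0 : ∀ β ∈ O, β ≠ 0 := by
    intro β hβ h0
    obtain ⟨w, -, hw⟩ := Finset.mem_image.1 hβ
    apply hω
    have h1 : rep cs h w⁻¹ (rep cs h w ω) = ω := rep_inv_apply cs h w ω
    rw [← h1]
    change rep cs h w ω = β at hw
    rw [hw, h0, map_zero]
  have hex : ∀ β ∈ O, ((Finset.univ : Finset (Fin m)).filter (fun k => cpr cs h β (g k) ≠ 0)).Nonempty := by
    intro β hβ
    by_contra hcon
    rw [Finset.not_nonempty_iff_eq_empty] at hcon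
    apply hO0 β hβ
    apply hC.full
    intro k
    by_contra hk
    have : k ∈ (Finset.univ : Finset (Fin m)).filter (fun k => cpr cs h β (g k) ≠ 0) :=
      Finset.mem_filter.2 ⟨Finset.mem_univ k, hk⟩
    rw [hcon] at this
    exact absurd this (Finset.notMem_empty k)
  let kk : ∀ β ∈ O, Fin m := fun β hβ => ((Finset.univ : Finset (Fin m)).filter (fun k => cpr cs h β (g k) ≠ 0)).max' (hex β hβ)
  have hkk1 : ∀ β (hβ : β ∈ O), cpr cs h β (g (kk β hβ)) ≠ 0 := fun β hβ =>
    (Finset.mem_filter.1 (Finset.max'_mem _ (hex β hβ))).2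
  have hkk2 : ∀ β (hβ : β ∈ O) j, kk β hβ < j → cpr cs h β (g j) = 0 := by
    intro β hβ j hj
    by_contra hne
    have h1 := Finset.le_max' ((Finset.univ : Finset (Fin m)).filter (fun k => cpr cs h β (g k) ≠ 0)) j
      (Finset.mem_filter.2 ⟨Finset.mem_univ j, hne⟩)
    exact absurd (lt_of_lt_of_le hj h1) (lt_irrefl _)
  have hkk_eq : ∀ β (hβ : β ∈ O) k, cpr cs h β (g k) ≠ 0 → (∀ j, k < j → cpr cs h β (g j) = 0) → kk β hβ = k := by
    intro β hβ k h1 h2
    rcases lt_trichotomy (kk β hβ) k with h3 | h3 | h3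
    · exact absurd (hkk2 β hβ k h3) h1
    · exact h3
    · exact absurd (h2 _ h3) (hkk1 β hβ)
  -- the coefficients of the reflected vector
  have hcoef : ∀ β k j, cpr cs h (rep cs h (t k) β) (g j) = if j = k then -cpr cs h β (g k) else cpr cs h β (g j) := by
    intro β k j
    rw [ht, sub_eq_add_neg, ← neg_smul, cpr_add cs h _ _ (hC.root j), cpr_smul cs h _ _ (hC.root j)]
    by_cases hjk : j = k
    · subst hjk
      rw [if_pos rfl, cpr_self cs h (hC.root j)]
      ring
    · rw [if_neg hjk, hC.orth k j (Ne.symm hjk), mul_zero, add_zero]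
  have hmem : ∀ β ∈ O, ∀ k, rep cs h (t k) β ∈ O := by
    intro β hβ k
    obtain ⟨w, -, hw⟩ := Finset.mem_image.1 hβ
    refine Finset.mem_image.2 ⟨t k * w, Finset.mem_univ _, ?_⟩
    change rep cs h w ω = β at hw
    rw [rep_mul_apply, hw]
  have hFsq : ∀ β, ((Fm cs h X β : ℕ) : ZMod l) ^ 2 = 1 := by
    intro β
    unfold Fm
    rw [Nat.cast_prod, ← Finset.prod_pow]
    refine Finset.prod_eq_one fun x hx => ?_
    exact hsq x (mem_posF.mp (Finset.mem_filter.mp hx).1).1
  refine Finset.sum_involution (fun β hβ => rep cs h (t (kk β hβ)) β) ?_ ?_ ?_ ?_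
  · intro β hβ
    have h1 : ((Fm cs h X β : ℕ) : ZMod l) * ((Fm cs h X (rep cs h (t (kk β hβ)) β) : ℕ) : ZMod l) = -1 := by
      rw [← hC.size (kk β hβ)]
      refine Fm_refl R hsq (hC.root _) (hC.pos _) (ht _) ?_
      intro x hx hx0 hx1
      rw [ht] at hx1
      refine form_ne_zero (k := kk β hβ) hC.root hC.orth hC.full (hC.tri _ x hx hx0 hx1) (hkk2 β hβ) ?_ (hkk1 β hβ)
      intro h0
      rw [h0, zero_smul, sub_zero] at hx1
      exact hx1 hx0
    have h2 := hFsq β
    have h3 : ((Fm cs h X (rep cs h (t (kk β hβ)) β) : ℕ) : ZMod l) = -((Fm cs h X β : ℕ) : ZMod l) := by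
      calc ((Fm cs h X (rep cs h (t (kk β hβ)) β) : ℕ) : ZMod l)
          = ((Fm cs h X β : ℕ) : ZMod l) ^ 2 * ((Fm cs h X (rep cs h (t (kk β hβ)) β) : ℕ) : ZMod l) := by rw [h2, one_mul]
        _ = ((Fm cs h X β : ℕ) : ZMod l) *
            (((Fm cs h X β : ℕ) : ZMod l) * ((Fm cs h X (rep cs h (t (kk β hβ)) β) : ℕ) : ZMod l)) := by ring
        _ = _ := by rw [h1]; ring
    rw [h3, add_neg_cancel]
  · intro β hβ _ he
    have h1 := hcoef β (kk β hβ) (kk β hβ)
    rw [if_pos rfl, he] at h1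
    have h2 := hkk1 β hβ
    omega
  · intro β hβ
    exact hmem β hβ _
  · intro β hβ
    have h1 : kk (rep cs h (t (kk β hβ)) β) (hmem β hβ _) = kk β hβ := by
      refine hkk_eq _ (hmem β hβ _) _ ?_ ?_
      · rw [hcoef, if_pos rfl]
        exact neg_ne_zero.mpr (hkk1 β hβ)
      · intro j hj
        rw [hcoef, if_neg hj.ne']
        exact hkk2 β hβ j hj
    simp only [h1]
    have h2 : rep cs h (t (kk β hβ)) (g (kk β hβ)) = -g (kk β hβ) := by
      rw [ht, cpr_self cs h (hC.root _), two_smul]; abel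
    rw [ht _ β, map_sub, map_smul, h2, ht _ β, smul_neg]
    abel

end Cfsg.Agent.H581.RGC
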