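import Mathlib
import Cfsg.Agent.H554.RGTits
import Cfsg.Agent.Nodes.ClsPair
import Cfsg.Agent.H581.Cascade
import Cfsg.Agent.H581.HC

/-!
# Hall coverings and root group data (helper581)

* `commute_of_two` : for orthogonal nodes `j`, `k` the rank one group of `j` centralises `X (sr k)`;
* `exists_orderOf` : `⟨X (sr j), X (-sr j)⟩` has elements of order `l` for every prime `l ∣ |X (sr j)| + 1`;
* `exists_dom` : dominant vectors orthogonal to all nodes but one;
* `false_of_dvd` : no Hall covering if `p` and `l` are in `σ` and `l` divides the index of every maximal parabolic subgroup;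
* `false_of_casc` : the criterion.
-/

set_option autoImplicit false
set_option linter.unusedSectionVars false

namespace Cfsg.Agent.H581.RGC

open CoxeterSystem Cfsg.Agent.ChevalleyStructure.CoxeterGeom Cfsg.Agent.Tits.Roots Cfsg.Agent.Tits.Core
  Cfsg.Agent.Tits.Exchange Cfsg.Agent.Nodes.Reps Cfsg.Agent.Nodes.BNOf Cfsg.Agent.Nodes.StabComb
  Cfsg.Agent.Nodes.Bruhat Cfsg.Agent.Nodes.OppDec Cfsg.Agent.Nodes.LeviDec Cfsg.Agent.Nodes.NormalForm
  Cfsg.Agent.Nodes.CardSup Cfsg.Agent.Nodes.Unique Cfsg.Agent.Nodes.Coroot Cfsg.Agent.Nodes.SubComb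
  Cfsg.Agent.Nodes.NormX Cfsg.Agent.Nodes.Comb Cfsg.Agent.Nodes.ClsPair Cfsg.Agent.H554.RG
open Cfsg.Agent.H581

variable {I W S : Type*} [Fintype I] [DecidableEq I] [Group W] [Group S] {M : CoxeterMatrix I}
  {cs : CoxeterSystem M W} {A : I → I → ℤ} {h : IsCartan M A} {p : ℕ} {T : Subgroup S} {n : I → S}
  {X : (I → ℤ) → Subgroup S}

/-- the prime `l` used for a group over a field with `q` elements -/
theorem exists_l {p q k : ℕ} (hp : p.Prime) (hq : q = p ^ k) :
    ∃ l : ℕ, l.Prime ∧ l ∣ q + 1 ∧ (p = 2 ∨ l = 2) := by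
  rcases eq_or_ne p 2 with rfl | h2
  · have h1 : q + 1 ≠ 1 := by
      have : 0 < q := by rw [hq]; positivity
      omega
    exact ⟨(q + 1).minFac, Nat.minFac_prime h1, Nat.minFac_dvd _, Or.inl rfl⟩
  · refine ⟨2, Nat.prime_two, ?_, Or.inr rfl⟩
    have h3 : Odd q := by
      rw [hq]
      exact (hp.odd_of_ne_two h2).pow
    obtain ⟨c, hc⟩ := h3
    exact ⟨c + 1, by omega⟩

theorem cast_neg_one {q l : ℕ} (h : l ∣ q + 1) : ((q : ℕ) : ZMod l) = -1 := by
  rw [eq_neg_iff_add_eq_zero]
  have := (CharP.cast_eq_zero_iff (ZMod l) l (q + 1)).2 h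
  rwa [Nat.cast_add, Nat.cast_one] at this

/-- no root lies strictly between two different nodes `± sr j`, `sr k` with `M j k = 2` -/
theorem not_btwn [Finite W] {j k : I} (hjk : j ≠ k) (h2 : M j k = 2) {x z : I → ℤ} (hx : x = sr j ∨ x = -sr j) :
    ¬ Btwn cs h x (sr k) z := by
  rintro ⟨hz, m, a, b, hm, ha, hb, he⟩
  have hzk : m * z k = b := by
    have := congrFun he k
    rw [Pi.smul_apply, Pi.add_apply, Pi.smul_apply, Pi.smul_apply, smul_eq_mul, smul_eq_mul, smul_eq_mul] at this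
    have h1 : x k = 0 := by
      rcases hx with rfl | rfl
      · exact sr_ne hjk.symm
      · rw [Pi.neg_apply, sr_ne hjk.symm, neg_zero]
    rw [h1, sr_self, mul_zero, zero_add, mul_one] at this
    exact this
  have hzj : m * z j = a * x j := by
    have := congrFun he j
    rw [Pi.smul_apply, Pi.add_apply, Pi.smul_apply, Pi.smul_apply, smul_eq_mul, smul_eq_mul, smul_eq_mul] at this
    rw [sr_ne hjk, mul_zero, add_zero] at this
    exact this
  have hs : Supp j k z := by
    intro i hij hik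
    have := congrFun he i
    rw [Pi.smul_apply, Pi.add_apply, Pi.smul_apply, Pi.smul_apply, smul_eq_mul, smul_eq_mul, smul_eq_mul,
      sr_ne hik, mul_zero, add_zero] at this
    have h1 : x i = 0 := by
      rcases hx with rfl | rfl
      · exact sr_ne hij
      · rw [Pi.neg_apply, sr_ne hij, neg_zero]
    rw [h1, mul_zero] at this
    exact (mul_eq_zero.1 this).resolve_left hm.ne'
  have hzk0 : z k ≠ 0 := by
    intro h0
    rw [h0, mul_zero] at hzk
    omega
  have hxj : x j ≠ 0 := by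
    rcases hx with rfl | rfl
    · rw [sr_self]; norm_num
    · rw [Pi.neg_apply, sr_self]; norm_num
  have hzj0 : z j ≠ 0 := by
    intro h0
    rw [h0, mul_zero] at hzj
    rcases mul_eq_zero.1 hzj.symm with h1 | h1
    · omega
    · exact hxj h1
  obtain ⟨a', ha', h1⟩ := eq_of_supp_two hjk h2 hz hs
  rcases ha' with rfl | rfl
  · apply hzk0
    rcases h1 with rfl | rfl
    · exact sr_ne hjk.symm
    · rw [Pi.neg_apply, sr_ne hjk.symm, neg_zero]
  · apply hzj0
    rcases h1 with rfl | rfl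
    · exact sr_ne hjk
    · rw [Pi.neg_apply, sr_ne hjk, neg_zero]

section

variable (R : RGD cs h p T n X)

include R

theorem commute_of_two [Finite W] {j k : I} (hjk : j ≠ k) (h2 : M j k = 2) {a b : S}
    (ha : a ∈ X (sr j) ⊔ X (-sr j)) (hb : b ∈ X (sr k)) : Commute a b := by
  have key : ∀ x, (x = sr j ∨ x = -sr j) → X x ≤ Subgroup.centralizer ({b} : Set S) := by
    intro x hx a ha
    have hxr : IsRoot cs h x := by
      rcases hx with rfl | rfl
      · exact isRoot_sr cs h j
      · exact (isRoot_sr cs h j).neg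
    have hxj : x k = 0 := by
      rcases hx with rfl | rfl
      · exact sr_ne hjk.symm
      · rw [Pi.neg_apply, sr_ne hjk.symm, neg_zero]
    have hne : x ≠ sr k := by
      rintro rfl
      rw [sr_self] at hxj
      exact one_ne_zero hxj
    have hne' : x ≠ -sr k := by
      rintro rfl
      rw [Pi.neg_apply, sr_self] at hxj
      omega
    have h1 := R.comm x (sr k) hxr (isRoot_sr cs h k) hne hne' a ha b hb
    have h3 : btw cs h X x (sr k) = ⊥ := by
      rw [Nodes.Reps.btw, iSup_eq_bot]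
      rintro ⟨z, hz⟩
      exact absurd hz (not_btwn hjk h2 hx)
    rw [h3, Subgroup.mem_bot, commutatorElement_eq_one_iff_mul_comm] at h1
    rw [Subgroup.mem_centralizer_singleton_iff]
    exact h1
  have h1 : X (sr j) ⊔ X (-sr j) ≤ Subgroup.centralizer ({b} : Set S) :=
    sup_le (key _ (Or.inl rfl)) (key _ (Or.inr rfl))
  have h3 := h1 ha
  rw [Subgroup.mem_centralizer_singleton_iff] at h3
  exact h3

omit R in
theorem eq_of_mem_RootsJ {j : I} {x : I → ℤ} (hx : x ∈ RootsJ cs h {j}) : x = sr j ∨ x = -sr j := by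
  have h1 : x = x j • sr j := by
    funext i
    rw [Pi.smul_apply, smul_eq_mul]
    by_cases hij : i = j
    · subst hij; rw [sr_self, mul_one]
    · rw [sr_ne hij, mul_zero]
      exact hx.2 i hij
  have hx0 : x j ≠ 0 := by
    intro h0
    rw [h0, zero_smul] at h1
    exact hx.1.ne_zero h1
  rcases lt_or_gt_of_ne hx0 with h2 | h2
  · right
    refine eq_of_ray hx.1 (isRoot_sr cs h j).neg (a := 1) (b := -x j) one_pos (by omega) ?_
    rw [one_smul, neg_smul_neg]
    exact h1
  · left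
    refine eq_of_ray hx.1 (isRoot_sr cs h j) (a := 1) (b := x j) one_pos h2 ?_
    rw [one_smul]
    exact h1

theorem exists_orderOf [Finite W] [Finite S] (j : I) {l : ℕ} (hl : l.Prime) (hd : l ∣ Nat.card (X (sr j)) + 1) :
    ∃ y ∈ X (sr j) ⊔ X (-sr j), orderOf y = l := by
  have : Fact l.Prime := ⟨hl⟩
  set G : Subgroup S := X (sr j) ⊔ X (-sr j) with hG
  -- `P_j = G B`
  have hGP : G ≤ PJ cs h T X {j} := by
    refine sup_le ?_ ?_
    · exact (RGD.X_le_B (isRoot_sr cs h j) (sr_nonneg j)).trans B_le_PJ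
    · refine le_trans ?_ LJ_le_PJ
      exact (RGD.le_Sup (X := X) (⟨(isRoot_sr cs h j).neg, fun k hk => by
        rw [Pi.neg_apply, sr_ne (fun e => hk e), neg_zero]⟩ : -sr j ∈ RootsJ cs h {j})).trans le_sup_right
  have hsup : RGD.Sup X (RootsJ cs h {j}) ≤ G := by
    refine RGD.Sup_le fun x hx => ?_
    rcases eq_of_mem_RootsJ hx with rfl | rfl
    · exact le_sup_left
    · exact le_sup_right
  have hTG : T ≤ Subgroup.normalizer (G : Set S) := by
    intro t ht
    rw [mem_normalizer_iff_cj, hG, cj_sup, R.tor _ (isRoot_sr cs h j) t ht, R.tor _ (isRoot_sr cs h j).neg t ht]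
  have hmul : ∀ y ∈ PJ cs h T X {j}, ∃ g ∈ G, g⁻¹ * y ∈ RGD.B cs h T X := by
    intro y hy
    obtain ⟨u, hu, v, hv, rfl⟩ := (mem_PJ R).1 hy
    have h1 : u ∈ T ⊔ G := (sup_le_sup_left hsup T) hu
    have h2 : u ∈ ((T ⊔ G : Subgroup S) : Set S) := h1
    rw [Subgroup.coe_mul_of_left_le_normalizer_right _ _ hTG, Set.mem_mul] at h2
    obtain ⟨t, ht, g, hg, rfl⟩ := h2
    refine ⟨t * g * t⁻¹, (Subgroup.mem_normalizer_iff.1 (hTG ht) g).1 hg, ?_⟩
    have e : (t * g * t⁻¹)⁻¹ * (t * g * v) = t * v := by group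
    rw [e]
    exact mul_mem (RGD.T_le_B ht) (VJ_le_B _ hv)
  have hdvd : Nat.card (X (sr j)) + 1 ∣ Nat.card G := by
    rw [← relIndex_B_PJ_singleton R j]
    have h1 : (RGD.B cs h T X).relIndex (PJ cs h T X {j}) = (RGD.B cs h T X).relIndex G := by
      unfold Subgroup.relIndex Subgroup.index
      refine (Nat.card_congr (Equiv.ofBijective (Subgroup.quotientSubgroupOfEmbeddingOfLE (RGD.B cs h T X) hGP)
        ⟨(Subgroup.quotientSubgroupOfEmbeddingOfLE (RGD.B cs h T X) hGP).injective, ?_⟩)).symm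
      intro q
      induction q using QuotientGroup.induction_on with
      | _ y =>
        obtain ⟨g, hg, hb⟩ := hmul y y.2
        refine ⟨QuotientGroup.mk ⟨g, hg⟩, ?_⟩
        rw [Subgroup.quotientSubgroupOfEmbeddingOfLE_apply_mk]
        apply QuotientGroup.eq.2
        rw [Subgroup.mem_subgroupOf]
        exact hb
    rw [h1]
    exact Subgroup.relIndex_dvd_card _ _
  obtain ⟨y, hy⟩ := exists_prime_orderOf_dvd_card' (G := G) l (hd.trans hdvd)
  exact ⟨y, y.2, by rw [← hy]; exact (Subgroup.orderOf_coe y).symm ▸ rfl⟩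

end

/-- dominant vectors orthogonal to all nodes but `i` -/
theorem exists_dom [Finite W] (cs : CoxeterSystem M W) (h : IsCartan M A) (i : I) :
    ∃ ω : I → ℤ, Dom A ω ∧ ω ≠ 0 ∧ ({i}ᶜ : Set I) ⊆ orth cs h ω := by
  classical
  have : Fintype W := Fintype.ofFinite W
  let J : Set I := {i}ᶜ
  have : Fintype (WJ cs J) := Fintype.ofFinite _
  let ω : I → ℤ := ∑ w : WJ cs J, rep cs h (w : W) (sr i)
  have hinv : ∀ v : WJ cs J, rep cs h (v : W) ω = ω := by
    intro v
    simp only [ω]
    rw [map_sum]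
    refine Fintype.sum_equiv (Equiv.mulLeft v) _ _ fun w => ?_
    rw [← rep_mul_apply]
    rfl
  have horth : ∀ j, j ≠ i → j ∈ orth cs h ω := fun j hj =>
    hinv ⟨cs.simple j, Subgroup.subset_closure ⟨j, hj, rfl⟩⟩
  have hcoef : ω i = Fintype.card (WJ cs J) := by
    simp only [ω]
    rw [Finset.sum_apply]
    have h1 : ∀ w : WJ cs J, rep cs h (w : W) (sr i) i = 1 := by
      intro w
      rw [Cfsg.Agent.Tits.RootComb.rep_apply_of_mem cs h w.2 (sr i) (fun hi => hi rfl), sr_self]
    simp only [h1]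
    simp
  have hpos : 0 < ω i := by
    rw [hcoef]
    exact_mod_cast Fintype.card_pos
  have hω : ω ≠ 0 := by
    intro h0
    rw [h0] at hpos
    exact lt_irrefl _ hpos
  refine ⟨ω, ?_, hω, fun j hj => horth j hj⟩
  intro j
  by_cases hj : j = i
  · subst hj
    have h1 : form cs h ω ω = ω j * form cs h (sr j) ω := by
      have e : ∀ s : Finset I, form cs h (∑ k ∈ s, ω k • (sr k : I → ℤ)) ω = ∑ k ∈ s, ω k * form cs h (sr k) ω := by
        intro s
        induction s using Finset.induction_on with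
        | empty =>
          rw [Finset.sum_empty, Finset.sum_empty]
          have h0 := form_smul_left cs h 0 (0 : I → ℤ) ω
          rwa [zero_smul, zero_mul] at h0
        | insert a s ha ih => rw [Finset.sum_insert ha, Finset.sum_insert ha, form_add_left, ih, form_smul_left]
      have e1 := e Finset.univ
      rw [← Cfsg.Agent.H554.RG.eq_sum_sr ω] at e1
      rw [e1, Finset.sum_eq_single j]
      · intro k _ hk
        have h2 := (form_sr_eq_zero_iff (cs := cs) (h := h) (r := ω) (i := k)).2 (horth k hk)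
        rw [form_comm, h2, mul_zero]
      · intro hk
        exact absurd (Finset.mem_univ j) hk
    have h2 : 0 < form cs h ω ω := form_pos cs h hω
    rw [h1] at h2
    have h3 : 0 < form cs h (sr j) ω := by
      by_contra hcon
      push Not at hcon
      have := mul_nonpos_of_nonneg_of_nonpos hpos.le hcon
      omega
    have h4 := two_form cs h j ω
    rw [form_comm] at h3
    have h5 : 0 < form cs h (sr j) (sr j) := form_pos cs h (isRoot_sr cs h j).ne_zero
    by_contra hcon
    push Not at hcon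
    have := mul_neg_of_neg_of_pos hcon h5
    omega
  · have h1 := mem_orth.1 (horth j hj)
    rw [h1]

section

variable (R : RGD cs h p T n X)

include R

/-- No Hall covering if `p` and `l` are in `σ` and `l` divides the index of all maximal parabolic subgroups. -/
theorem false_of_dvd [Finite W] [Finite S] [Fact p.Prime] (hG : GG cs h T X = ⊤)
    (hG1 : RGD.Sup X {x | IsRoot cs h x} = ⊤) {σ : Set ℕ} (hc : HC S σ) (hp : p ∈ σ) {l : ℕ} (hl : l.Prime)
    (hlσ : l ∈ σ) (h2 : 2 ∣ Nat.card S) (hi : ∀ i, l ∣ (PJ cs h T X {i}ᶜ).index) : False := by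
  obtain ⟨H, hH⟩ := hc.exists_hall h2
  obtain ⟨g, i, hgi⟩ := exists_conj_le R hG hG1 (hH.index p Fact.out hp) (hc.ne_top hH)
  exact (hH.conj g).index l hl hlσ ((hi i).trans (Subgroup.index_dvd_of_le hgi))

/-- **The criterion.** -/
theorem false_of_casc [Finite W] [Finite S] [Fact p.Prime] (hG : GG cs h T X = ⊤)
    (hG1 : RGD.Sup X {x | IsRoot cs h x} = ⊤) {σ : Set ℕ} (hc : HC S σ) (hp : p ∈ σ) {l : ℕ} (hl : l.Prime)
    (hlσ : l ∈ σ) (h2 : 2 ∣ Nat.card S) {m : ℕ} {g : Fin m → I → ℤ}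
    (hsq : ∀ x, IsRoot cs h x → ((Nat.card (X x) : ℕ) : ZMod l) ^ 2 = 1) (hC : Casc cs h X l g) : False := by
  refine false_of_dvd R hG hG1 hc hp hl hlσ h2 fun i => ?_
  obtain ⟨ω, h3, h4, h5⟩ := exists_dom cs h i
  exact (dvd_index_casc R hG hsq hC h3 h4).trans (Subgroup.index_dvd_of_le (PJ_mono R h5))

/-- `p` and `l` are in `σ` if there are orthogonal nodes `j`, `k` and `l ∣ |X (sr j)| + 1`, `p = 2` or `l = 2`. -/
theorem mem_of_two [Finite W] [Finite S] [Fact p.Prime] {σ : Set ℕ} (hc : HC S σ) {j k : I} (hjk : j ≠ k)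
    (h2 : M j k = 2) {l : ℕ} (hl : l.Prime) (hd : l ∣ Nat.card (X (sr j)) + 1) (h : p = 2 ∨ l = 2) :
    p ∈ σ ∧ l ∈ σ ∧ 2 ∣ Nat.card S := by
  obtain ⟨y, hy, hyo⟩ := exists_orderOf R j hl hd
  have hX : X (sr k) ≠ ⊥ := X_ne_bot R (isRoot_sr cs _ k)
  obtain ⟨z, hz, hz1⟩ : ∃ z ∈ X (sr k), z ≠ 1 := by
    by_contra hcon
    push Not at hcon
    exact hX ((Subgroup.eq_bot_iff_forall _).2 hcon)
  have hzp : p ∣ orderOf z := by
    have h1 : IsPGroup p ↥(X (sr k)) := R.pgrp k
    obtain ⟨e, he⟩ := (IsPGroup.iff_orderOf.1 h1) ⟨z, hz⟩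
    rw [Subgroup.orderOf_mk] at he
    rw [he]
    rcases e with _ | e
    · exfalso
      rw [pow_zero] at he
      exact hz1 (orderOf_eq_one_iff.1 he)
    · exact dvd_pow_self p (Nat.succ_ne_zero e)
  have hcomm := commute_of_two R hjk h2 hy hz
  rcases h with rfl | rfl
  · exact ⟨hc.two, hc.commute hc.two hcomm.symm Nat.prime_two hl hzp (by rw [hyo]),
      hzp.trans (orderOf_dvd_natCard z)⟩
  · exact ⟨hc.commute hc.two hcomm Nat.prime_two Fact.out (by rw [hyo]) hzp, hc.two,
      hyo ▸ orderOf_dvd_natCard y⟩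

end

end Cfsg.Agent.H581.RGC
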