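import Mathlib
import Cfsg.Agent.H581.Crit
import Cfsg.Agent.H554.LieC
import Cfsg.Agent.Nodes.KindB
import Cfsg.Agent.Nodes.KindC

/-!
# Cascades in type `C n` (helper581)

* `nonneg_iff` : positivity in `ε`-coordinates;
* `casc_C` : the roots `2 ε_k`;
* `casc_B` : the roots `ε_{2k} ± ε_{2k+1}`, `n` even.
-/

set_option autoImplicit false
set_option linter.unusedSectionVars false

namespace Cfsg.Agent.H581.RGC.CC

open CoxeterSystem Cfsg.Agent.ChevalleyStructure.CoxeterGeom Cfsg.Agent.Tits.Roots Cfsg.Agent.Tits.Core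
  Cfsg.Agent.Nodes.Coroot Cfsg.Agent.Nodes.TypeC Cfsg.Agent.Nodes.TypeCForm Cfsg.Agent.Nodes.KindBC
open Cfsg.Agent.H581.RGC
open Cfsg.Agent.Nodes

variable {n : ℕ}

theorem sum_ee (x : Fin n → ℤ) (m : Fin n) : ∑ k ∈ Finset.Iic m, ee x k = cc m * x m := by
  have h1 : ∀ k, ee x k = ∑ j, x j * bt j k := fun k => by simp [ee, Finset.sum_apply]
  simp only [h1]
  rw [Finset.sum_comm]
  simp only [← Finset.mul_sum, sum_bt]
  rw [Finset.sum_eq_single m]
  · simp only [if_true, cc]
    split_ifs <;> ring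
  · intro j _ hj
    simp [Ne.symm hj]
  · simp

theorem nonneg_iff {x : Fin n → ℤ} : 0 ≤ x ↔ ∀ m : Fin n, 0 ≤ ∑ k ∈ Finset.Iic m, ee x k := by
  constructor
  · intro h m
    rw [sum_ee]
    exact mul_nonneg (cc_pos m).le (h m)
  · intro h m
    have h1 := h m
    rw [sum_ee] at h1
    exact nonneg_of_mul_nonneg_right h1 (cc_pos m)

/-- positivity of a vector with a positive leading coordinate and at most one other nonzero coordinate `±1` -/
theorem nonneg_of_two {x : Fin n → ℤ} {j k : Fin n} (hjk : j < k) (hj : ee x j = 1) (hk : ee x k = 1 ∨ ee x k = -1)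
    (h0 : ∀ i, i ≠ j → i ≠ k → ee x i = 0) : 0 ≤ x := by
  rw [nonneg_iff]
  intro m
  have e : ∀ i, ee x i = (if i = j then 1 else 0) + (if i = k then ee x k else 0) := by
    intro i
    by_cases h1 : i = j
    · subst h1
      rw [if_pos rfl, if_neg hjk.ne, hj, add_zero]
    · by_cases h2 : i = k
      · subst h2
        rw [if_neg h1, if_pos rfl, zero_add]
      · rw [if_neg h1, if_neg h2, h0 i h1 h2, add_zero]
  rw [Finset.sum_congr rfl fun i _ => e i, Finset.sum_add_distrib, Finset.sum_ite_eq', Finset.sum_ite_eq']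
  simp only [Finset.mem_Iic]
  by_cases h1 : j ≤ m
  · rw [if_pos h1]
    rcases hk with hk | hk <;> rw [hk] <;> split_ifs <;> norm_num
  · rw [if_neg h1, if_neg (fun h2 => h1 (hjk.le.trans h2)), add_zero]

/-- the coordinates of a root -/
theorem root_coords {x : Fin n → ℤ} {W : Type*} [Group W] {cs : CoxeterSystem (CoxeterMatrix.B n) W}
    (hx : IsRoot cs (isCartan n) x) {j k : Fin n} (hjk : j ≠ k) (hj : ee x j ≠ 0) (hk : ee x k ≠ 0) :
    (ee x j = 1 ∨ ee x j = -1) ∧ (ee x k = 1 ∨ ee x k = -1) ∧ ∀ i, i ≠ j → i ≠ k → ee x i = 0 := by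
  obtain ⟨a, b, hab, e⟩ := isRoot_iff.1 hx
  have e' : ∀ i, ee x i = wt a i + wt b i := fun i => by rw [e, Pi.add_apply]
  have ha : ∀ i, i ≠ a.1 → wt a i = 0 := fun i hi => wt_apply_ne hi
  have hb : ∀ i, i ≠ b.1 → wt b i = 0 := fun i hi => wt_apply_ne hi
  have h1 : ∀ i, ee x i ≠ 0 → i = a.1 ∨ i = b.1 := by
    intro i hi
    by_contra hcon
    rw [not_or] at hcon
    rw [e', ha i hcon.1, hb i hcon.2] at hi
    exact hi (add_zero 0)
  have hne : a.1 ≠ b.1 := by
    intro h2
    have h3 := h1 j hj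
    have h4 := h1 k hk
    rw [← h2, or_self] at h3 h4
    exact hjk (h3.trans h4.symm)
  have hwa : ee x a.1 = 1 ∨ ee x a.1 = -1 := by
    rw [e', hb _ hne, add_zero, wt_apply_self]
    exact sn_eq_one_or a
  have hwb : ee x b.1 = 1 ∨ ee x b.1 = -1 := by
    rw [e', ha _ hne.symm, zero_add, wt_apply_self]
    exact sn_eq_one_or b
  have hall : ∀ i, i ≠ a.1 → i ≠ b.1 → ee x i = 0 := fun i h2 h3 => by rw [e', ha i h2, hb i h3, add_zero]
  rcases h1 j hj with h3 | h3 <;> rcases h1 k hk with h4 | h4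
  · exact absurd (h3.trans h4.symm) hjk
  · rw [h3, h4]; exact ⟨hwa, hwb, hall⟩
  · rw [h3, h4]; exact ⟨hwb, hwa, fun i h5 h6 => hall i h6 h5⟩
  · exact absurd (h3.trans h4.symm) hjk

section C

variable {W S : Type*} [Group W] [Finite W] [Group S] (cs : CoxeterSystem (CoxeterMatrix.B n) W)

theorem casc_C {X : (Fin n → ℤ) → Subgroup S} {l : ℕ}
    (hX : ∀ k, ((Nat.card (X (KindC.fr n k)) : ℕ) : ZMod l) = -1) :
    Casc cs (isCartan n) X l (KindC.fr n) where
  root := KindC.isRoot_fr cs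
  pos k := by
    rw [nonneg_iff]
    intro m
    refine Finset.sum_nonneg fun i _ => ?_
    rw [KindC.ee_fr_apply]
    split_ifs <;> norm_num
  orth j k hjk := by rw [KindC.cpr_fr, KindC.ee_fr_apply, if_neg hjk.symm]
  full x hx := by
    apply ee_injective
    funext k
    rw [← KindC.cpr_fr cs, hx k]
    simp [ee]
  tri k x hx hx0 hneg j hjk := by
    rw [KindC.cpr_fr] at hneg ⊢
    by_contra hj
    by_cases hk : ee x k = 0
    · rw [hk, zero_smul, sub_zero] at hneg
      exact hneg hx0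
    obtain ⟨h1, h2, h3⟩ := root_coords hx hjk.ne hj hk
    have h4 : ee x j = 1 := by
      rcases h1 with h1 | h1
      · exact h1
      · exfalso
        have h5 := nonneg_iff.1 hx0 j
        have h6 : ∑ i ∈ Finset.Iic j, ee x i = ee x j := by
          refine Finset.sum_eq_single j (fun i hi hij => h3 i hij ?_) (fun hj' => absurd (Finset.mem_Iic.2 le_rfl) hj')
          rintro rfl
          exact absurd (Finset.mem_Iic.1 hi) (not_le.2 hjk)
        rw [h6, h1] at h5
        norm_num at h5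
    apply hneg
    have hy : ∀ i, ee (x - ee x k • KindC.fr n k) i = if i = k then -ee x k else ee x i := by
      intro i
      rw [sub_eq_add_neg, ee_add, ee_neg, ee_smul, Pi.add_apply, Pi.neg_apply, Pi.smul_apply, smul_eq_mul,
        KindC.ee_fr_apply]
      split_ifs with h5
      · subst h5; ring
      · ring
    refine nonneg_of_two hjk ?_ ?_ ?_
    · rw [hy, if_neg hjk.ne, h4]
    · rw [hy, if_pos rfl]
      rcases h2 with h2 | h2 <;> rw [h2] <;> norm_num
    · intro i h5 h6
      rw [hy, if_neg h6, h3 i h5 h6]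
  size := hX

end C

end Cfsg.Agent.H581.RGC.CC
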