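import Mathlib
import Cfsg.Agent.H581.HC
import Cfsg.Agent.S0033
import Cfsg.Prelude.Def_Solvable

/-!
# Hall coverings: quotients, normal subgroups, the Fitting subgroup (helper581)
-/

set_option autoImplicit false
set_option linter.unusedSectionVars false

namespace Cfsg.Agent.H581

open Subgroup

variable {G : Type*} [Group G] [Finite G] {σ : Set ℕ}

/-- quotients by normal `σ`-subgroups -/
theorem HC.quot (h : HC G σ) {N : Subgroup G} [N.Normal] (hN : ∀ r : ℕ, r.Prime → r ∣ Nat.card N → r ∈ σ) :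
    HC (G ⧸ N) σ := by
  refine ⟨h.two, ?_, ?_, ?_⟩
  · intro x a b ha hb hda hdb haσ
    obtain ⟨g, rfl⟩ := QuotientGroup.mk_surjective x
    have h1 : orderOf (g : G ⧸ N) ∣ orderOf g := orderOf_map_dvd (QuotientGroup.mk' N) g
    exact h.iso g a b ha hb (hda.trans h1) (hdb.trans h1) haσ
  · obtain ⟨r, hr, hd, hn⟩ := h.ne
    refine ⟨r, hr, ?_, hn⟩
    rw [Subgroup.card_eq_card_quotient_mul_card_subgroup N, hr.dvd_mul] at hd
    exact hd.resolve_right fun h' => hn (hN r hr h')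
  · intro x a ha hda haσ
    obtain ⟨g, rfl⟩ := QuotientGroup.mk_surjective x
    have h1 : orderOf (g : G ⧸ N) ∣ orderOf g := orderOf_map_dvd (QuotientGroup.mk' N) g
    obtain ⟨H, hgH, hH⟩ := h.cov g a ha (hda.trans h1) haσ
    have hle : N ≤ H := hH.normal_le hN
    refine ⟨H.map (QuotientGroup.mk' N), ⟨g, hgH, rfl⟩, ?_, ?_⟩
    · intro r hr hrσ hd
      rw [Subgroup.index_map_eq H (QuotientGroup.mk'_surjective N) (by rw [QuotientGroup.ker_mk']; exact hle)] at hd
      exact hH.index r hr hrσ hd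
    · intro r hr hd
      exact hH.card r hr (hd.trans (Subgroup.card_map_dvd H (QuotientGroup.mk' N)))

theorem relIndex_dvd_index_right {H S : Subgroup G} [S.Normal] : H.relIndex S ∣ H.index := by
  have h1 : H.relIndex (H ⊔ S) ∣ H.index := Subgroup.relIndex_dvd_index_of_le le_sup_left
  refine dvd_trans (dvd_of_eq ?_) h1
  have h2 : Nat.card S * S.relIndex H = Nat.card ↥(H ⊔ S) := by
    rw [← Subgroup.relIndex_sup_right H S, Subgroup.relIndex,
      ← Nat.card_congr (Subgroup.subgroupOfEquivOfLe (le_sup_right : S ≤ H ⊔ S)).toEquiv]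
    exact (S.subgroupOf (H ⊔ S)).card_mul_index
  have h3 : Nat.card H * H.relIndex (H ⊔ S) = Nat.card ↥(H ⊔ S) := by
    rw [Subgroup.relIndex, ← Nat.card_congr (Subgroup.subgroupOfEquivOfLe (le_sup_left : H ≤ H ⊔ S)).toEquiv]
    exact (H.subgroupOf (H ⊔ S)).card_mul_index
  have h4 : Nat.card ↥(S ⊓ H) * S.relIndex H = Nat.card H := by
    rw [← Subgroup.inf_relIndex_right, Subgroup.relIndex,
      ← Nat.card_congr (Subgroup.subgroupOfEquivOfLe (inf_le_right : S ⊓ H ≤ H)).toEquiv]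
    exact ((S ⊓ H).subgroupOf H).card_mul_index
  have h5 : Nat.card ↥(S ⊓ H) * H.relIndex S = Nat.card S := by
    rw [inf_comm, ← Subgroup.inf_relIndex_right, Subgroup.relIndex,
      ← Nat.card_congr (Subgroup.subgroupOfEquivOfLe (inf_le_right : H ⊓ S ≤ S)).toEquiv]
    exact ((H ⊓ S).subgroupOf S).card_mul_index
  have h6 : 0 < Nat.card ↥(S ⊓ H) := Nat.card_pos
  have h7 : 0 < S.relIndex H := Nat.pos_of_ne_zero Subgroup.index_ne_zero_of_finite
  have h8 : (Nat.card ↥(S ⊓ H) * S.relIndex H) * H.relIndex S =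
      (Nat.card ↥(S ⊓ H) * S.relIndex H) * H.relIndex (H ⊔ S) := by
    calc (Nat.card ↥(S ⊓ H) * S.relIndex H) * H.relIndex S =
        (Nat.card ↥(S ⊓ H) * H.relIndex S) * S.relIndex H := by ring
      _ = Nat.card ↥(H ⊔ S) := by rw [h5, h2]
      _ = _ := by rw [h4, h3]
  exact Nat.eq_of_mul_eq_mul_left (Nat.mul_pos h6 h7) h8

/-- normal subgroups whose index is a `σ`-number -/
theorem HC.sub (h : HC G σ) {S : Subgroup G} [S.Normal] (hS : ∀ r : ℕ, r.Prime → r ∣ S.index → r ∈ σ) :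
    HC S σ := by
  refine ⟨h.two, ?_, ?_, ?_⟩
  · intro x a b ha hb hda hdb haσ
    rw [← Subgroup.orderOf_coe] at hda hdb
    exact h.iso x a b ha hb hda hdb haσ
  · obtain ⟨r, hr, hd, hn⟩ := h.ne
    refine ⟨r, hr, ?_, hn⟩
    rw [← S.card_mul_index, hr.dvd_mul] at hd
    exact hd.resolve_right fun h' => hn (hS r hr h')
  · intro x a ha hda haσ
    rw [← Subgroup.orderOf_coe] at hda
    obtain ⟨H, hgH, hH⟩ := h.cov x a ha hda haσ
    refine ⟨H.subgroupOf S, hgH, ?_, ?_⟩
    · intro r hr hrσ hd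
      exact hH.index r hr hrσ (hd.trans (relIndex_dvd_index_right (H := H) (S := S)))
    · intro r hr hd
      refine hH.card r hr (hd.trans ?_)
      have h1 : Nat.card ↥(H.subgroupOf S) = Nat.card ↥(H ⊓ S) := by
        rw [← Subgroup.inf_subgroupOf_right]
        exact Nat.card_congr (Subgroup.subgroupOfEquivOfLe (inf_le_right : H ⊓ S ≤ S)).toEquiv
      rw [h1]
      exact Subgroup.card_dvd_of_le inf_le_left

/-- the centraliser of a normal subgroup with trivial centre and `σ`-index is trivial -/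
theorem HC.centralizer_eq_bot (h : HC G σ) {S : Subgroup G} [S.Normal]
    (hS : ∀ r : ℕ, r.Prime → r ∣ S.index → r ∈ σ) (hZ : S ⊓ centralizer (S : Set G) = ⊥) :
    centralizer (S : Set G) = ⊥ := by
  by_contra hne
  have h1 : Nat.card ↥(centralizer (S : Set G)) ≠ 1 := fun h1 => hne (Subgroup.eq_bot_of_card_eq _ h1)
  obtain ⟨a, ha, hda⟩ := Nat.exists_prime_and_dvd h1
  have : Fact a.Prime := ⟨ha⟩
  obtain ⟨c, hc⟩ := exists_prime_orderOf_dvd_card' a hda
  have h2 : a ∣ S.index := by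
    refine hda.trans ?_
    have h3 : S.relIndex (centralizer (S : Set G)) ∣ S.index := Subgroup.relIndex_dvd_index_of_normal _ _
    refine dvd_trans (dvd_of_eq ?_) h3
    rw [← Subgroup.inf_relIndex_right, hZ, Subgroup.relIndex_bot_left]
  obtain ⟨r, hr, hdr, hn⟩ := (h.sub hS).ne
  have : Fact r.Prime := ⟨hr⟩
  obtain ⟨y, hy⟩ := exists_prime_orderOf_dvd_card' r hdr
  apply hn
  refine h.commute (hS a ha h2) (x := (c : G)) (y := (y : G)) ?_ ha hr ?_ ?_
  · exact ((Subgroup.mem_centralizer_iff.1 c.2) y y.2).symm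
  · rw [Subgroup.orderOf_coe, hc]
  · rw [Subgroup.orderOf_coe, hy]

/-- normal `σ`-subgroups are nilpotent -/
theorem HC.nilpotent (h : HC G σ) {N : Subgroup G} [N.Normal] (hN : ∀ r : ℕ, r.Prime → r ∣ Nat.card N → r ∈ σ) :
    Group.IsNilpotent N := by
  obtain ⟨r, hr, hdr, hn⟩ := h.ne
  have : Fact r.Prime := ⟨hr⟩
  obtain ⟨y, hy⟩ := exists_prime_orderOf_dvd_card' r hdr
  set φ : MulAut N := MulAut.conjNormal y with hφ
  have hfix : ∀ n : N, φ n = n → n = 1 := by
    intro n hn1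
    by_contra hne
    have h1 : orderOf n ≠ 1 := fun h1 => hne (orderOf_eq_one_iff.1 h1)
    obtain ⟨a, ha, hda⟩ := Nat.exists_prime_and_dvd h1
    apply hn
    refine h.commute (hN a ha (hda.trans (orderOf_dvd_natCard n))) (x := (n : G)) (y := y) ?_ ha hr ?_ ?_
    · have h2 := congrArg Subtype.val hn1
      rw [hφ, MulAut.conjNormal_apply] at h2
      show (n : G) * y = y * n
      rw [mul_inv_eq_iff_eq_mul] at h2
      exact h2.symm
    · rw [Subgroup.orderOf_coe]; exact hda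
    · rw [hy]
  have hpow : φ ^ r = 1 := by
    rw [hφ, ← map_pow, ← hy, pow_orderOf_eq_one, map_one]
  have hord : orderOf φ = 1 ∨ orderOf φ = r := (Nat.dvd_prime hr).1 (orderOf_dvd_of_pow_eq_one hpow)
  rcases hord with h1 | h1
  · have h2 : φ = 1 := orderOf_eq_one_iff.1 h1
    have h3 : ∀ n : N, n = 1 := fun n => hfix n (by rw [h2]; rfl)
    have : Subsingleton N := ⟨fun a b => by rw [h3 a, h3 b]⟩
    exact Group.isNilpotent_of_subsingleton
  · exact Cfsg.Agent.S0033.result φ (fun g hg => hfix g hg) r hr h1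

/-- the Fitting subgroup -/
theorem fitting_eq {N : Subgroup G} [N.Normal] (hN : Group.IsNilpotent N) {S : Subgroup (G ⧸ N)} [S.Normal]
    (hS : IsSimpleGroup S) (hna : ¬ IsMulCommutative S) (hC : centralizer (S : Set (G ⧸ N)) = ⊥) :
    Cfsg.fittingSubgroup G = N := by
  apply le_antisymm
  · refine sSup_le ?_
    rintro K ⟨hK, hKn⟩
    set K' := K.map (QuotientGroup.mk' N) with hK'
    have hK'n : K'.Normal := hK.map _ (QuotientGroup.mk'_surjective N)
    have hnil : Group.IsNilpotent K' := by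
      have : Function.Surjective ((QuotientGroup.mk' N).subgroupMap K) := MonoidHom.subgroupMap_surjective _ _
      exact Group.nilpotent_of_surjective _ this
    have h1 : K' ⊓ S = ⊥ := by
      have hn : ((K' ⊓ S).subgroupOf S).Normal := by
        have : (K' ⊓ S).Normal := inferInstance
        exact Subgroup.normal_subgroupOf
      rcases hS.eq_bot_or_eq_top_of_normal _ hn with h | h
      · rw [Subgroup.subgroupOf_eq_bot, disjoint_iff] at h
        rw [inf_assoc, inf_idem] at h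
        exact h
      · exfalso
        rw [Subgroup.subgroupOf_eq_top] at h
        have h2 : S ≤ K' := h.trans inf_le_left
        apply hna
        have h3 : Group.IsSolvable K' := inferInstance
        have h4 : Group.IsSolvable S := Group.isSolvable_of_isSolvable_injective (Subgroup.inclusion_injective h2)
        exact ⟨⟨IsSimpleGroup.comm_iff_isSolvable.2 h4⟩⟩
    have h2 : K' ≤ centralizer (S : Set (G ⧸ N)) := by
      have h3 : ⁅K', S⁆ ≤ K' ⊓ S := Subgroup.commutator_le_inf K' S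
      rw [h1, le_bot_iff, Subgroup.commutator_eq_bot_iff_le_centralizer] at h3
      exact h3
    rw [hC, le_bot_iff, Subgroup.map_eq_bot_iff, QuotientGroup.ker_mk'] at h2
    exact h2
  · exact le_sSup ⟨inferInstance, hN⟩

/-- **Hall coverings** -/
theorem hc_of_cover (h2 : 2 ∣ Nat.card G) {𝓗 : Set (Subgroup G)} (hcov : ∀ g : G, ∃ H ∈ 𝓗, g ∈ H)
    (hprop : ∀ H ∈ 𝓗, H ≠ ⊤) (hhall : ∀ H ∈ 𝓗, (Nat.card H).Coprime H.index)
    (hord : ∀ H ∈ 𝓗, ∀ K ∈ 𝓗, Nat.card H = Nat.card K ∨ (Nat.card H).Coprime (Nat.card K)) : ∃ σ : Set ℕ, HC G σ := by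
  have : Fact (Nat.Prime 2) := ⟨Nat.prime_two⟩
  obtain ⟨t, ht⟩ := exists_prime_orderOf_dvd_card' (G := G) 2 h2
  obtain ⟨H₀, hH₀, htH⟩ := hcov t
  have h2H : 2 ∣ Nat.card H₀ := by
    rw [← ht, ← Subgroup.orderOf_mk t htH]
    exact orderOf_dvd_natCard _
  let σ : Set ℕ := {r | r ∣ Nat.card H₀}
  have key : ∀ H ∈ 𝓗, ∀ g ∈ H, ∀ a : ℕ, a.Prime → a ∣ orderOf g → a ∈ σ → Nat.card H = Nat.card H₀ := by
    intro H hH g hg a ha hda haσ
    refine (hord H hH H₀ hH₀).resolve_right fun hco => ?_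
    have h1 : a ∣ Nat.card H := by
      rw [← Subgroup.orderOf_mk g hg] at hda
      exact hda.trans (orderOf_dvd_natCard _)
    exact ha.one_lt.ne' (Nat.eq_one_of_dvd_coprimes hco h1 haσ)
  refine ⟨σ, h2H, ?_, ?_, ?_⟩
  · intro g a b ha hb hda hdb haσ
    obtain ⟨H, hH, hg⟩ := hcov g
    have h1 := key H hH g hg a ha hda haσ
    show b ∣ Nat.card H₀
    rw [← h1]
    rw [← Subgroup.orderOf_mk g hg] at hdb
    exact hdb.trans (orderOf_dvd_natCard _)
  · have h1 : H₀.index ≠ 1 := fun h1 => hprop H₀ hH₀ (Subgroup.index_eq_one.1 h1)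
    obtain ⟨r, hr, hd⟩ := Nat.exists_prime_and_dvd h1
    exact ⟨r, hr, hd.trans H₀.index_dvd_card, fun h3 => hr.one_lt.ne' (Nat.eq_one_of_dvd_coprimes (hhall H₀ hH₀) h3 hd)⟩
  · intro g a ha hda haσ
    obtain ⟨H, hH, hg⟩ := hcov g
    have h1 := key H hH g hg a ha hda haσ
    refine ⟨H, hg, ?_, ?_⟩
    · intro r hr hrσ hd
      refine hr.one_lt.ne' (Nat.eq_one_of_dvd_coprimes (hhall H hH) ?_ hd)
      rw [h1]
      exact hrσ
    · intro r hr hd
      show r ∣ Nat.card H₀
      rw [← h1]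
      exact hd

end Cfsg.Agent.H581
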