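import Mathlib
import Cfsg.Agent.H581.CascC

/-!
# No Hall coverings: classical groups with root group data of type `C_n`, `n ≥ 3` (helper581)

`PSp_{2m}(q)` and `PΩ_{2m+1}(q)`, `m ≥ 3`; `PSU_N(q)`, `N ≥ 6`; `PΩ⁻_{2m}(q)`, `m ≥ 4`, `q` odd.
-/

set_option autoImplicit false
set_option linter.unusedSectionVars false

namespace Cfsg.Agent.H581.RowsC

open CoxeterSystem Cfsg.Agent.ChevalleyStructure.CoxeterGeom Cfsg.Agent.Tits.Roots Cfsg.Agent.Nodes.TypeC
open Cfsg.Agent.Nodes Cfsg.Agent.Nodes.Comb Cfsg.Agent.Nodes.Reps Cfsg.Agent.Nodes.WittRoot Cfsg.Agent.Nodes.BNOf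
open Cfsg.Agent.Nodes.WittRGD Cfsg.Agent.Nodes.RGDLib Cfsg.Agent.Nodes.WittAll
open Cfsg.Agent.TitsThree Cfsg.Agent.TitsThree.Siegel Cfsg.Agent.TitsThree.WittFrame
  Cfsg.Agent.TitsThree.WittWeyl Cfsg.Agent.TitsThree.FrameCN
open Cfsg.Agent.Nodes.StabComb Cfsg.Agent.Nodes.Bruhat Cfsg.Agent.H554.SizeC Cfsg.Agent.H554.RG Cfsg.Agent.H554.LieC
open Cfsg.Agent.H581 Cfsg.Agent.H581.RGC

theorem card_eq_pow (F : Type*) [Field F] [Finite F] (p : ℕ) [Fact p.Prime] [CharP F p] :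
    ∃ k : ℕ, Nat.card F = p ^ k := by
  have : Fintype F := Fintype.ofFinite F
  obtain ⟨k, -, hk⟩ := FiniteField.card F p
  exact ⟨k, by rw [Nat.card_eq_fintype_card, hk]⟩

section Model

variable {F : Type*} [Field F] {V : Type*} [AddCommGroup V] [Module F V] {H : HForm F V} {n : ℕ}
  {Fr : Frame H (Fin n)} {K : Type*} [Group K] [Finite K] (M : Model Fr K) {p : ℕ} (hA : AmbT Fr p M.I)

include hA in
theorem false_of_model [Finite V] [Fact p.Prime] [CharP F p] {p0 : Fr.Adm} (hp0 : p0.c ≠ 0) (hn : 3 ≤ n) {l : ℕ}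
    (hl : l.Prime) (hpl : p = 2 ∨ l = 2) (h1 : ((Nat.card F : ℕ) : ZMod l) ^ 2 = 1)
    (h2 : ((Nat.card Fr.Adm : ℕ) : ZMod l) = -1) {σ : Set ℕ} (hc : HC K σ) : False := by
  let cs := (CoxeterMatrix.B n).toCoxeterSystem
  have : Finite (CoxeterMatrix.B n).Group := finite_W cs
  have R := rgdC_model M hA hp0 cs
  have hlast : ¬ ((⟨n - 1, by omega⟩ : Fin n) : ℕ) + 1 < n := by simp only; omega
  have hd : l ∣ Nat.card (WittModel.X M (sr (⟨n - 1, by omega⟩ : Fin n))) + 1 := by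
    rw [card_long M hA hp0 (bt_long hlast), ← CharP.cast_eq_zero_iff (ZMod l) l, Nat.cast_add, h2, Nat.cast_one,
      neg_add_cancel]
  have hjk : (⟨n - 1, by omega⟩ : Fin n) ≠ ⟨0, by omega⟩ := by
    intro e
    have := congrArg Fin.val e
    simp only at this
    omega
  have hM : CoxeterMatrix.B n (⟨n - 1, by omega⟩ : Fin n) ⟨0, by omega⟩ = 2 := by
    by_contra hne
    have := B_ne_two hjk hne
    simp only at this
    omega
  obtain ⟨hpσ, hlσ, h2S⟩ := mem_of_two R hc hjk hM hl hd hpl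
  refine false_of_casc R (GG_eq_top M (by omega) cs) ?_ hc hpσ hl hlσ h2S (sq_eq_one M hA hp0 h1 (by rw [h2]; ring) cs)
    (CC.casc_C cs fun k => ?_)
  · exact WittModel.G1_eq_top M (by omega) cs
  · rw [card_long M hA hp0 (KindC.ee_fr k), h2]

end Model

open Cfsg

theorem hc_PSp {F : Type*} [Field F] [Finite F] {m : ℕ} (hm : 3 ≤ m) {σ : Set ℕ} (hc : HC (PSp m F) σ) : False := by
  obtain ⟨p, hp⟩ := CharP.exists F
  have : Fact p.Prime := ⟨CharP.char_is_prime F p⟩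
  obtain ⟨k, hk⟩ := card_eq_pow F p
  obtain ⟨l, hl, hd, hpl⟩ := exists_l Fact.out hk
  have h1 := RGC.cast_neg_one hd
  refine false_of_model (KInstSp.model m F) (AmbT.of_amb WittU.amb_Sp p) (p0 := SpIdent.adm 1) one_ne_zero hm
    hl hpl ?_ ?_ hc
  · rw [h1]; ring
  · rw [card_adm_Sp, h1]

theorem hc_PSU {F : Type*} [Field F] [Fintype F] {q N : ℕ} (hF : Fintype.card F = q ^ 2) (hN : 6 ≤ N) {σ : Set ℕ}
    (hc : HC (PSU N F q) σ) : False := by
  obtain ⟨p, hp⟩ := CharP.exists F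
  have : Fact p.Prime := ⟨CharP.char_is_prime F p⟩
  obtain ⟨k, hk⟩ := card_eq_pow F p
  obtain ⟨j, -, hj⟩ := (Nat.dvd_prime_pow Fact.out).1 (show q ∣ p ^ k by
    rw [← hk, Nat.card_eq_fintype_card, hF]; exact dvd_pow_self q two_ne_zero)
  obtain ⟨l, hl, hd, hpl⟩ := exists_l (Fact.out : p.Prime) hj
  have h1 := RGC.cast_neg_one hd
  obtain ⟨m, hm⟩ : ∃ m, N = 2 * m ∨ N = 2 * m + 1 := ⟨N / 2, by omega⟩
  obtain ⟨W, -⟩ := WittU.exists_wframe hF hm
  obtain ⟨p0, hp0, -⟩ := WittU.exists_adm hF W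
  have hq := LieClassical.HermBasic.two_le hF
  have h2 : ((Nat.card F : ℕ) : ZMod l) ^ 2 = 1 := by
    rw [Nat.card_eq_fintype_card, hF, Nat.cast_pow, h1]; ring
  refine false_of_model (KInstU.model hF (by omega) W) (AmbT.of_amb (WittU.amb_U hF W) p) hp0 (by omega) hl hpl h2 ?_ hc
  rcases hm with hm | hm
  · rw [card_adm_U_even hF W hm, h1]
  · rw [card_adm_U_odd hF W hm, Nat.cast_pow, h1]; ring

section Orthogonal

open QuadraticMap
open Cfsg.Agent.LieClassical Cfsg.Agent.LieClassical.OrthCore Cfsg.Agent.LieClassical.OrthTrans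
open Cfsg.Agent.LieClassical.OrthSimple Cfsg.Agent.LieClassical.OrthFinite
open Cfsg.Agent.LieClassical.OrthForms
open Cfsg.Agent.TitsThree.KSideO Cfsg.Agent.TitsThree.StdData Cfsg.Agent.TitsThree.SiegelGen
  Cfsg.Agent.TitsThree.WBridge Cfsg.Agent.Nodes.WittInst

theorem hc_PO_odd {F : Type*} [Field F] [Finite F] {m : ℕ} (h2 : (2 : F) ≠ 0) (hm : 3 ≤ m) {σ : Set ℕ}
    (hc : HC (Cfsg.POmega F (Cfsg.quadFormOdd m F)) σ) : False := by
  obtain ⟨p, hp⟩ := CharP.exists F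
  have : Fact p.Prime := ⟨CharP.char_is_prime F p⟩
  obtain ⟨k, hk⟩ := card_eq_pow F p
  obtain ⟨l, hl, hd, hpl⟩ := exists_l Fact.out hk
  have h1 := RGC.cast_neg_one hd
  rw [← coe_oddForm] at hc
  have hG : Good (oddForm m F) := by
    apply good_of_finite (nondeg_oddForm m F h2)
    rw [Module.finrank_fintype_fun_eq_card, Fintype.card_sum, Fintype.card_sum, Fintype.card_fin,
      Fintype.card_unit]
    omega
  have hp : ((embOdd m F).ngt ⟨1, -1 ^ 2, rfl⟩).c ≠ 0 := by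
    change (1 : F)⁻¹ * (-1 ^ 2) ≠ 0
    simp
  refine false_of_model (model (wodd m F) hG ⟨_, hp⟩) (AmbT.of_amb (amb_O_of_two _ h2) p) hp hm hl hpl ?_ ?_ hc
  · rw [h1]; ring
  · have h3 := card_V0 (wodd m F)
    have h4 : Nat.card (Unit ⊕ Fin m ⊕ Fin m → F) = Nat.card F ^ m * Nat.card F ^ m * Nat.card F := by
      rw [Nat.card_fun, Nat.card_eq_fintype_card (α := Unit ⊕ Fin m ⊕ Fin m), Fintype.card_sum, Fintype.card_sum,
        Fintype.card_fin, Fintype.card_unit, pow_add, pow_add, pow_one]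
      ring
    rw [h4] at h3
    have h5 : 0 < Nat.card F ^ m * Nat.card F ^ m := by
      have := Nat.card_pos (α := F)
      positivity
    rw [card_adm_O, Nat.eq_of_mul_eq_mul_left h5 h3, h1]

/-- `q` odd -/
theorem hc_PO_minus_odd {F : Type*} [Field F] [Finite F] {m : ℕ} (h2 : (2 : F) ≠ 0) (a b : F)
    (hab : ∀ z₁ z₂ : F, z₁ ^ 2 + a * z₁ * z₂ + b * z₂ ^ 2 = 0 → z₁ = 0 ∧ z₂ = 0)
    (hm : 3 ≤ m) {σ : Set ℕ} (hc : HC (Cfsg.POmega F (Cfsg.quadFormMinus m F a b)) σ) : False := by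
  obtain ⟨p, hp⟩ := CharP.exists F
  have : Fact p.Prime := ⟨CharP.char_is_prime F p⟩
  obtain ⟨k, hk⟩ := card_eq_pow F p
  have hodd : p ≠ 2 := by
    rintro rfl
    exact h2 (CharP.cast_eq_zero F 2)
  obtain ⟨l, hl, hd, hpl⟩ := exists_l Fact.out hk
  obtain rfl : l = 2 := hpl.resolve_left hodd
  have h1 := RGC.cast_neg_one hd
  rw [← coe_minusForm] at hc
  have hG : Good (minusForm m F a b) := by
    apply good_of_finite (nondeg_minusForm m F a b hab)
    rw [Module.finrank_fintype_fun_eq_card, Fintype.card_sum, Fintype.card_sum, Fintype.card_fin,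
      Fintype.card_fin]
    omega
  have hp : ((embMinus m F a b hab).ngt ⟨(1, 0), -nf a b (1, 0), rfl⟩).c ≠ 0 := by
    change (1 : F)⁻¹ * (-nf a b (1, 0)) ≠ 0
    simp [nf]
  have hA : AmbT (toFrame (wminus m F a b hab)) p (E (minusForm m F a b)) := AmbT.of_amb (amb_O_of_two _ h2) p
  refine false_of_model (model (wminus m F a b hab) hG ⟨_, hp⟩) hA hp hm hl (Or.inr rfl) ?_ ?_ hc
  · rw [h1]; ring
  · have h3 := card_V0 (wminus m F a b hab)
    have h4 : Nat.card ((Fin m ⊕ Fin m) ⊕ Fin 2 → F) = Nat.card F ^ m * Nat.card F ^ m * Nat.card F ^ 2 := by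
      rw [Nat.card_fun, Nat.card_eq_fintype_card (α := (Fin m ⊕ Fin m) ⊕ Fin 2), Fintype.card_sum, Fintype.card_sum,
        Fintype.card_fin, Fintype.card_fin, pow_add, pow_add]
    rw [h4] at h3
    have h5 : 0 < Nat.card F ^ m * Nat.card F ^ m := by
      have := Nat.card_pos (α := F)
      positivity
    rw [card_adm_O, Nat.eq_of_mul_eq_mul_left h5 h3, Nat.cast_pow, h1]
    decide

end Orthogonal

end Cfsg.Agent.H581.RowsC
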