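import Mathlib
import Cfsg.Agent.H581.RowsC
import Cfsg.Agent.H554.LieD
import Cfsg.Agent.Nodes.KindD

/-!
# No Hall coverings: `PΩ⁺_{2m}(q)`, `q` odd (helper581)

* `dvd_two_index` : `q` odd, a fixed point free involution on the orbits of `W`: all proper parabolic indices are even;
* `hc_PO_plus_odd`.
-/

set_option autoImplicit false
set_option linter.unusedSectionVars false

namespace Cfsg.Agent.H581.RGC

open CoxeterSystem Cfsg.Agent.ChevalleyStructure.CoxeterGeom Cfsg.Agent.Tits.Roots Cfsg.Agent.Tits.Core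
  Cfsg.Agent.Tits.Exchange Cfsg.Agent.Nodes.Reps Cfsg.Agent.Nodes.BNOf Cfsg.Agent.Nodes.StabComb
  Cfsg.Agent.Nodes.Bruhat Cfsg.Agent.Nodes.OppDec Cfsg.Agent.Nodes.LeviDec Cfsg.Agent.Nodes.NormalForm
  Cfsg.Agent.Nodes.CardSup Cfsg.Agent.Nodes.Unique Cfsg.Agent.Nodes.Coroot Cfsg.Agent.Nodes.SubComb
  Cfsg.Agent.Nodes.NormX Cfsg.Agent.H554.RG
open Cfsg.Agent.H581

section General

variable {I W S : Type*} [Fintype I] [DecidableEq I] [Group W] [Group S] {M : CoxeterMatrix I}
  {cs : CoxeterSystem M W} {A : I → I → ℤ} {h : IsCartan M A} {p : ℕ} {T : Subgroup S} {n : I → S}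
  {X : (I → ℤ) → Subgroup S} (R : RGD cs h p T n X)

include R

theorem dvd_two_index [Finite S] [Finite W] (hG : GG cs h T X = ⊤)
    (hodd : ∀ x, IsRoot cs h x → ((Nat.card (X x) : ℕ) : ZMod 2) = 1) (f : (I → ℤ) → W)
    (h1 : ∀ β, β ≠ 0 → rep cs h (f β) β ≠ β) (h2 : ∀ β, β ≠ 0 → f (rep cs h (f β) β) = f β)
    (h3 : ∀ β x, rep cs h (f β) (rep cs h (f β) x) = x) {ω : I → ℤ}
    (hd : Dom A ω) (hω : ω ≠ 0) : 2 ∣ (PJ cs h T X (orth cs h ω)).index := by
  classical
  have : Fintype W := Fintype.ofFinite W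
  rw [← CharP.cast_eq_zero_iff (ZMod 2) 2, index_orth R hG hd, Nat.cast_sum]
  set O : Finset (I → ℤ) := Finset.univ.image (fun w : W => rep cs h w ω) with hO
  have hO0 : ∀ β ∈ O, β ≠ 0 := by
    intro β hβ h0
    obtain ⟨w, -, hw⟩ := Finset.mem_image.1 hβ
    apply hω
    have h1 : rep cs h w⁻¹ (rep cs h w ω) = ω := rep_inv_apply cs h w ω
    rw [← h1]
    change rep cs h w ω = β at hw
    rw [hw, h0, map_zero]
  have hF : ∀ β, ((Fm cs h X β : ℕ) : ZMod 2) = 1 := by
    intro β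
    unfold Fm
    rw [Nat.cast_prod]
    exact Finset.prod_eq_one fun x hx => hodd x (mem_posF.mp (Finset.mem_filter.mp hx).1).1
  refine Finset.sum_involution (fun β _ => rep cs h (f β) β) ?_ ?_ ?_ ?_
  · intro β _
    rw [hF, hF]
    decide
  · intro β hβ _
    exact h1 β (hO0 β hβ)
  · intro β hβ
    obtain ⟨w, -, hw⟩ := Finset.mem_image.1 hβ
    refine Finset.mem_image.2 ⟨f β * w, Finset.mem_univ _, ?_⟩
    change rep cs h w ω = β at hw
    rw [rep_mul_apply, hw]
  · intro β hβ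
    simp only [h2 β (hO0 β hβ)]
    exact h3 β β

end General

end Cfsg.Agent.H581.RGC

namespace Cfsg.Agent.H581.RowsD

open CoxeterSystem Cfsg.Agent.ChevalleyStructure.CoxeterGeom Cfsg.Agent.Tits.Roots
open Cfsg.Agent.Nodes.TypeC (wt ng ng_ng ng_fst wt_ng wt_apply)
open Cfsg.Agent.Nodes.TypeD Cfsg.Agent.Nodes.KindD Cfsg.Agent.Nodes.Coroot
open Cfsg.Agent.Nodes Cfsg.Agent.Nodes.Comb Cfsg.Agent.Nodes.Reps Cfsg.Agent.Nodes.BNOf
open Cfsg.Agent.Nodes.RGDLib Cfsg.Agent.Nodes.WittInst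
open Cfsg.Agent.Nodes.StabComb Cfsg.Agent.Nodes.Bruhat Cfsg.Agent.H554.RG Cfsg.Agent.H554.LieD
open Cfsg.Agent.KFacts.SLRow.OmegaPlus Cfsg.Agent.LieClassical.OrthForms
open Cfsg.Agent.TitsThree.KSideO Cfsg.Agent.TitsThree.StdData Cfsg.Agent.LieClassical.OrthSimple
  Cfsg.Agent.LieClassical.OrthFinite
open Cfsg.Agent.H581 Cfsg.Agent.H581.RGC

section Comb

variable {n : ℕ} {W : Type*} [Group W] [Finite W] (cs : CoxeterSystem (M n) W)

/-- the element of `W` changing the signs of the coordinates `a` and `b` -/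
theorem exists_toggle {a b : Fin (n + 2)} (hab : a ≠ b) : ∃ w : W, ∀ x i,
    ee (rep cs (isCartan n) w x) i = if i = a ∨ i = b then -ee x i else ee x i := by
  have hok : ∀ s : Bool, Ok (a, true) (b, s) := fun s => hab
  obtain ⟨w1, hw1⟩ := KindBase.exists_refl cs (isCartan n) (isRoot_rD cs (hok true))
  obtain ⟨w2, hw2⟩ := KindBase.exists_refl cs (isCartan n) (isRoot_rD cs (hok false))
  refine ⟨w1 * w2, fun x i => ?_⟩
  rw [rep_mul_apply, hw1]
  have e1 : ∀ y j, ee (y - cpr cs (isCartan n) y (rD (a, true) (b, true)) • rD (a, true) (b, true)) j =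
      ee y j - (ee y a + ee y b) * ((if j = a then 1 else 0) + (if j = b then 1 else 0)) := by
    intro y j
    rw [sub_eq_add_neg, ee_add, ee_neg, ee_smul, Pi.add_apply, Pi.neg_apply, Pi.smul_apply, smul_eq_mul,
      cpr_rD cs y (hok true), ee_rD_apply (hok true)]
    simp only [if_true]
    ring
  have e2 : ∀ y j, ee (y - cpr cs (isCartan n) y (rD (a, true) (b, false)) • rD (a, true) (b, false)) j =
      ee y j - (ee y a - ee y b) * ((if j = a then 1 else 0) - (if j = b then 1 else 0)) := by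
    intro y j
    rw [sub_eq_add_neg, ee_add, ee_neg, ee_smul, Pi.add_apply, Pi.neg_apply, Pi.smul_apply, smul_eq_mul,
      cpr_rD cs y (hok false), ee_rD_apply (hok false)]
    simp only [if_true, Bool.false_eq_true, if_false]
    split_ifs <;> ring
  rw [e1, hw2, e2, e2, e2]
  simp only [hab, hab.symm, if_true, if_false]
  by_cases h1 : i = a
  · subst h1
    simp only [if_true, hab, if_false, true_or]
    ring
  · by_cases h2 : i = b
    · subst h2
      simp only [if_true, h1, if_false, or_true]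
      ring
    · simp only [h1, h2, if_false, or_self]
      ring

/-- the partner of the coordinate `k` -/
def pa (k : Fin (n + 2)) : Fin (n + 2) := if h : (k : ℕ) + 1 < n + 2 then ⟨k + 1, h⟩ else ⟨n, by omega⟩

theorem pa_ne (k : Fin (n + 2)) : k ≠ pa k := by
  intro e
  have := congrArg Fin.val e
  unfold pa at this
  split_ifs at this with h
  · simp only at this; omega
  · simp only at this; omega

theorem exists_f : ∃ f : (Fin (n + 2) → ℤ) → W,
    (∀ β, β ≠ 0 → rep cs (isCartan n) (f β) β ≠ β) ∧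
    (∀ β, β ≠ 0 → f (rep cs (isCartan n) (f β) β) = f β) ∧
    (∀ β x, rep cs (isCartan n) (f β) (rep cs (isCartan n) (f β) x) = x) := by
  classical
  choose t ht using fun k : Fin (n + 2) => exists_toggle cs (pa_ne k)
  have hne : ∀ β : Fin (n + 2) → ℤ, β ≠ 0 → ((Finset.univ : Finset (Fin (n + 2))).filter (fun k => ee β k ≠ 0)).Nonempty := by
    intro β hβ
    by_contra hcon
    rw [Finset.not_nonempty_iff_eq_empty] at hcon
    apply hβ
    apply ee_injective
    funext k
    by_contra hk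
    have h1 : k ∈ (Finset.univ : Finset (Fin (n + 2))).filter (fun k => ee β k ≠ 0) := by
      refine Finset.mem_filter.2 ⟨Finset.mem_univ k, fun h0 => hk ?_⟩
      rw [h0]
      simp [ee]
    rw [hcon] at h1
    exact absurd h1 (Finset.notMem_empty k)
  let kk : (Fin (n + 2) → ℤ) → Fin (n + 2) := fun β => if h : β ≠ 0 then
    ((Finset.univ : Finset (Fin (n + 2))).filter (fun k => ee β k ≠ 0)).max' (hne β h) else ⟨0, by omega⟩
  have hkk1 : ∀ β, β ≠ 0 → ee β (kk β) ≠ 0 := by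
    intro β hβ
    have h1 : kk β = ((Finset.univ : Finset (Fin (n + 2))).filter (fun k => ee β k ≠ 0)).max' (hne β hβ) := by
      simp only [kk]; rw [dif_pos hβ]
    rw [h1]
    exact (Finset.mem_filter.1 (Finset.max'_mem _ (hne β hβ))).2
  have hkk2 : ∀ β, β ≠ 0 → ∀ j, kk β < j → ee β j = 0 := by
    intro β hβ j hj
    have h1 : kk β = ((Finset.univ : Finset (Fin (n + 2))).filter (fun k => ee β k ≠ 0)).max' (hne β hβ) := by
      simp only [kk]; rw [dif_pos hβ]
    by_contra hn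
    have h2 := Finset.le_max' ((Finset.univ : Finset (Fin (n + 2))).filter (fun k => ee β k ≠ 0)) j
      (Finset.mem_filter.2 ⟨Finset.mem_univ j, hn⟩)
    rw [h1] at hj
    exact absurd (lt_of_lt_of_le hj h2) (lt_irrefl _)
  have hkk_eq : ∀ β, β ≠ 0 → ∀ k, ee β k ≠ 0 → (∀ j, k < j → ee β j = 0) → kk β = k := by
    intro β hβ k h1 h2
    rcases lt_trichotomy (kk β) k with h3 | h3 | h3
    · exact absurd (hkk2 β hβ k h3) h1
    · exact h3
    · exact absurd (h2 _ h3) (hkk1 β hβ)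
  have htt : ∀ k x, rep cs (isCartan n) (t k) (rep cs (isCartan n) (t k) x) = x := by
    intro k x
    apply ee_injective
    funext i
    rw [ht, ht]
    split_ifs <;> ring
  refine ⟨fun β => t (kk β), ?_, ?_, fun β x => htt _ x⟩
  · intro β hβ he
    have h1 := ht (kk β) β (kk β)
    rw [he, if_pos (Or.inl rfl)] at h1
    have := hkk1 β hβ
    omega
  · intro β hβ
    have hne0 : rep cs (isCartan n) (t (kk β)) β ≠ 0 := by
      intro h0
      apply hβ
      rw [← htt (kk β) β, h0, map_zero]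
    have key : kk (rep cs (isCartan n) (t (kk β)) β) = kk β := ?_
    · exact congrArg t key
    refine hkk_eq _ hne0 _ ?_ ?_
    · rw [ht, if_pos (Or.inl rfl)]
      exact neg_ne_zero.mpr (hkk1 β hβ)
    · intro j hj
      rw [ht, hkk2 β hβ j hj]
      split_ifs <;> simp

end Comb

open Cfsg

theorem hc_PO_plus_odd {F : Type*} [Field F] [Finite F] {m : ℕ} (h2 : (2 : F) ≠ 0) (hm : 4 ≤ m) {σ : Set ℕ}
    (hc : HC (Cfsg.POmega F (Cfsg.quadFormPlus m F)) σ) : False := by
  obtain ⟨p, hp⟩ := CharP.exists F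
  have : Fact p.Prime := ⟨CharP.char_is_prime F p⟩
  obtain ⟨k, hk⟩ := RowsC.card_eq_pow F p
  have hodd : p ≠ 2 := by
    rintro rfl
    exact h2 (CharP.cast_eq_zero F 2)
  obtain ⟨l, hl, hd2, hpl⟩ := exists_l Fact.out hk
  obtain rfl : l = 2 := hpl.resolve_left hodd
  have hq : ((Nat.card F : ℕ) : ZMod 2) = 1 := by
    rw [RGC.cast_neg_one hd2]
    decide
  obtain ⟨n, rfl⟩ : ∃ n, m = n + 2 := ⟨m - 2, by omega⟩
  rw [← coe_plusForm] at hc
  have hG := good_plus (n + 2) F (by omega)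
  let cs := (M n).toCoxeterSystem
  have : Finite (M n).Group := finite_W cs
  have R := rgdD_model (wplus (n + 2) F) hG (amb_plus _) (adm_plus _) (p := p) cs
  have hfin : Finite (POmega F ⇑(plusForm (n + 2) F)) := inferInstance
  have hX := fun x hx => card_XD (wplus (n + 2) F) hG cs (x := x) hx
  have hG1 := G1D_eq_top (wplus (n + 2) F) (toPOmega hG) (toPOmega_surjective hG) (adm_plus _) cs
  have hjk : (⟨0, by omega⟩ : Fin (n + 2)) ≠ ⟨2, by omega⟩ := by
    intro e
    have := congrArg Fin.val e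
    simp only at this
    omega
  have hM : M n (⟨0, by omega⟩ : Fin (n + 2)) ⟨2, by omega⟩ = 2 := by
    by_contra hne
    have := M_ne_two hjk hne
    unfold Cfsg.Agent.Nodes.TypeD.Adj at this
    simp only at this
    omega
  obtain ⟨hpσ, h2σ, h2S⟩ := mem_of_two R hc hjk hM Nat.prime_two (by rw [hX _ (isRoot_sr cs _ _)]; exact hd2) (Or.inr rfl)
  obtain ⟨f, hf1, hf2, hf3⟩ := exists_f cs
  refine false_of_dvd R ?_ hG1 hc hpσ Nat.prime_two h2σ h2S fun i => ?_
  · rw [eq_top_iff, ← hG1]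
    exact RGD.Sup_le fun x hx => X_le_GG hx
  obtain ⟨ω, h3, h4, h5⟩ := exists_dom cs (isCartan n) i
  refine (dvd_two_index R ?_ (fun x hx => by rw [hX x hx, hq]) f hf1 hf2 hf3 h3 h4).trans
    (Subgroup.index_dvd_of_le (PJ_mono R h5))
  rw [eq_top_iff, ← hG1]
  exact RGD.Sup_le fun x hx => X_le_GG hx

end Cfsg.Agent.H581.RowsD
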