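import Mathlib
import Cfsg.Agent.H581.RowsC
import Cfsg.Agent.H554.LieE
import Cfsg.Agent.Nodes.KindE
import Cfsg.Agent.Nodes.KindF

/-!
# No Hall coverings: the Chevalley groups of type `F₄`, `E₇`, `E₈` (helper581)

`casc_of_KD` : a cascade from the tabulated frames.
-/

set_option autoImplicit false
set_option linter.unusedSectionVars false

namespace Cfsg.Agent.H581.RowsE

open CoxeterSystem Cfsg.Lie Cfsg.Agent.ChevalleyStructure Cfsg.Agent.ChevalleyStructure.CoxeterGeom
  Cfsg.Agent.ChevalleyStructure.CoxeterGeomTypes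
  Cfsg.Agent.Tits.Roots Cfsg.Agent.Tits.Core Cfsg.Agent.Nodes.Reps Cfsg.Agent.Nodes.BNOf
  Cfsg.Agent.Nodes.RGDChev Cfsg.Agent.Nodes.RGDLib Cfsg.Agent.Nodes.StabComb Cfsg.Agent.Nodes.Bruhat Cfsg.Agent.H554.RG
  Cfsg.Agent.Nodes.KindChev Cfsg.Agent.H554.LieE
open Cfsg.Agent.KFacts.SLRow.Chev (card_XV)
open Cfsg.Agent.H581 Cfsg.Agent.H581.RGC

universe u

variable {D : ChevalleyDatum} {l f : ℕ} {M : CoxeterMatrix (Fin l)} {N : ℤ} {d : Fin l → ℤ} {fr cf : Fin f → Fin l → ℤ}
  {idx : Fin f → ℕ}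

/-- the conditions to be checked -/
structure Chk (D : ChevalleyDatum) (l : ℕ) {f : ℕ} (fr cf : Fin f → Fin l → ℤ) : Prop where
  pos : ∀ k i, 0 ≤ fr k i
  full : ∀ i j, ∑ k, cf k j * fr k i = if i = j then 2 else 0
  tri : ∀ r < D.nroots, (∀ i, 0 ≤ vec D l r i) → ∀ k,
    (∀ i, 0 ≤ vec D l r i - (∑ i, vec D l r i * cf k i) * fr k i) ∨ ∀ j, j < k → ∑ i, vec D l r i * cf j i = 0

theorem casc_of_KD (hp : IsType D l M) (T : KD D l f N d fr cf idx) (hC : Chk D l fr cf) {W : Type*} [Group W] [Finite W]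
    (cs : CoxeterSystem M W) {S : Type*} [Group S] {X : (Fin l → ℤ) → Subgroup S} {q : ℕ}
    (hX : ∀ k, ((Nat.card (X (fr k)) : ℕ) : ZMod q) = -1) : Casc cs hp.isCartan X q fr where
  root k := T.isRoot hp k
  pos k i := hC.pos k i
  orth j k hjk := by rw [T.cpr hp]; exact T.orth j k hjk
  full x hx := by
    funext i
    have h1 : 2 * x i = ∑ k, (∑ j, x j * cf k j) * fr k i := by
      simp only [Finset.sum_mul]
      rw [Finset.sum_comm]
      have h2 : ∀ j, ∑ k, x j * cf k j * fr k i = x j * if i = j then 2 else 0 := by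
        intro j
        rw [← hC.full i j, Finset.mul_sum]
        exact Finset.sum_congr rfl fun k _ => mul_assoc _ _ _
      rw [Finset.sum_congr rfl fun j _ => h2 j, Finset.sum_eq_single i]
      · rw [if_pos rfl]; ring
      · intro j _ hj
        rw [if_neg hj.symm, mul_zero]
      · intro hi
        exact absurd (Finset.mem_univ i) hi
    have h2 : ∀ k, ∑ j, x j * cf k j = 0 := fun k => by rw [← T.cpr (cs := cs) hp]; exact hx k
    simp only [h2, zero_mul, Finset.sum_const_zero] at h1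
    rw [Pi.zero_apply]
    omega
  tri k x hx hx0 hneg j hjk := by
    obtain ⟨r, hr, rfl⟩ := (isRoot_iff hp cs x).1 hx
    rw [T.cpr hp] at hneg ⊢
    rcases hC.tri r hr (fun i => hx0 i) k with h1 | h1
    · exact absurd (fun i => h1 i) hneg
    · exact h1 j hjk
  size := hX

theorem hc_group (hp : IsType D l M) (T : KD D l f N d fr cf idx) (hC : Chk D l fr cf) {j k : Fin l} (hjk : j ≠ k)
    (h2 : M j k = 2) (K : Type u) [Field K] [Finite K] {σ : Set ℕ} (hc : HC ↥(D.group K) σ) : False := by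
  obtain ⟨p, hp'⟩ := CharP.exists K
  have : Fact p.Prime := ⟨CharP.char_is_prime K p⟩
  obtain ⟨e, he⟩ := RowsC.card_eq_pow K p
  obtain ⟨q, hq, hd, hpq⟩ := exists_l Fact.out he
  have h1 := RGC.cast_neg_one hd
  let cs := M.toCoxeterSystem
  have hW : Finite M.Group := finite_W hp cs
  have R := rgd (K := K) hp cs p
  have hfin : Finite ↥(D.group K) := inferInstance
  have hX := fun x hx => card_XV hp K cs (x := x) hx
  obtain ⟨hpσ, hqσ, h2S⟩ := mem_of_two R hc hjk h2 hq (by rw [hX _ (isRoot_sr cs _ _)]; exact hd) hpq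
  refine false_of_casc R (GG_eq_top hp K cs) (G1_eq_top hp cs) hc hpσ hq hqσ h2S ?_ (casc_of_KD hp T hC cs fun k => ?_)
  · intro x hx
    rw [hX x hx, h1]
    ring
  · rw [hX _ (T.isRoot hp k), h1]

set_option backward.isDefEq.respectTransparency false in
theorem chkF : Chk chevF4 4 Nodes.KindF.fr Nodes.KindF.cf := by
  constructor <;> decide +kernel

set_option backward.isDefEq.respectTransparency false in
theorem chk7 : Chk chevE7 7 Nodes.KindE.fr7 Nodes.KindE.cf7 := by
  constructor <;> decide +kernel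

set_option backward.isDefEq.respectTransparency false in
theorem chk8 : Chk chevE8 8 Nodes.KindE.fr8 Nodes.KindE.cf8 := by
  constructor <;> decide +kernel

theorem hc_F4 (K : Type u) [Field K] [Finite K] {σ : Set ℕ} (hc : HC ↥(chevF4.group K) σ) : False :=
  hc_group Nodes.KindF.isType Nodes.KindF.kd chkF (j := 0) (k := 3) (by decide) (by decide) K hc

theorem hc_E7 (K : Type u) [Field K] [Finite K] {σ : Set ℕ} (hc : HC ↥(chevE7.group K) σ) : False :=
  hc_group Nodes.KindE.isType7 Nodes.KindE.kd7 chk7 (j := 0) (k := 1) (by decide) (by decide) K hc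

theorem hc_E8 (K : Type u) [Field K] [Finite K] {σ : Set ℕ} (hc : HC ↥(chevE8.group K) σ) : False :=
  hc_group Nodes.KindE.isType8 Nodes.KindE.kd8 chk8 (j := 0) (k := 1) (by decide) (by decide) K hc

end Cfsg.Agent.H581.RowsE
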