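import Mathlib
import Cfsg.Agent.H581.RowsC
import Cfsg.Agent.H948.UMain
import Cfsg.Agent.H377.SpElt

/-!
# No Hall coverings: `PSp₄(q)`, `PSU₃(q)`, `PSU₄(q)`, `PSU₅(q)` (helper581)
-/

set_option autoImplicit false
set_option linter.unusedSectionVars false

namespace Cfsg.Agent.H581.RowsF

open CoxeterSystem Cfsg.Agent.ChevalleyStructure.CoxeterGeom Cfsg.Agent.Tits.Roots Cfsg.Agent.Nodes.TypeC
open Cfsg.Agent.Nodes Cfsg.Agent.Nodes.Comb Cfsg.Agent.Nodes.Reps Cfsg.Agent.Nodes.WittRoot Cfsg.Agent.Nodes.BNOf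
open Cfsg.Agent.Nodes.WittRGD Cfsg.Agent.Nodes.RGDLib Cfsg.Agent.Nodes.WittAll
open Cfsg.Agent.TitsThree Cfsg.Agent.TitsThree.Siegel Cfsg.Agent.TitsThree.WittFrame
  Cfsg.Agent.TitsThree.WittWeyl Cfsg.Agent.TitsThree.FrameCN
open Cfsg.Agent.Nodes.StabComb Cfsg.Agent.Nodes.Bruhat Cfsg.Agent.H554.SizeC Cfsg.Agent.H554.RG Cfsg.Agent.H554.LieC
open Cfsg.Agent.H581 Cfsg.Agent.H581.RGC

theorem near_mem {S : Type*} [Group S] {σ : Set ℕ} (hc : HC S σ) {r : ℕ} (h : H564.NearTwo.Near S r) : r ∈ σ :=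
  hc.conn hc.two h.conn.symm

theorem adj_mem {S : Type*} [Group S] {σ : Set ℕ} (hc : HC S σ) {r : ℕ} (h : H94.PG.Adj S r 2) : r ∈ σ :=
  near_mem hc (.of_adj h)

theorem two_dvd_of_adj {S : Type*} [Group S] [Finite S] {r : ℕ} (h : H94.PG.Adj S r 2) : 2 ∣ Nat.card S := by
  obtain ⟨-, -, -, x, y, -, hy, -⟩ := h
  rw [← hy]
  exact orderOf_dvd_natCard y

section Model

variable {F : Type*} [Field F] {V : Type*} [AddCommGroup V] [Module F V] {H : HForm F V} {n : ℕ}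
  {Fr : Frame H (Fin n)} {K : Type*} [Group K] [Finite K] (M : Model Fr K) {p : ℕ} (hA : AmbT Fr p M.I)

include hA in
theorem false_of_model_small [Finite V] [Fact p.Prime] [CharP F p] {p0 : Fr.Adm} (hp0 : p0.c ≠ 0) (hn : 0 < n) {l : ℕ}
    (hl : l.Prime) (h1 : ((Nat.card F : ℕ) : ZMod l) ^ 2 = 1)
    (h2 : ((Nat.card Fr.Adm : ℕ) : ZMod l) = -1) {σ : Set ℕ} (hc : HC K σ) (hpσ : p ∈ σ) (hlσ : l ∈ σ)
    (h2S : 2 ∣ Nat.card K) : False := by
  let cs := (CoxeterMatrix.B n).toCoxeterSystem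
  have : Finite (CoxeterMatrix.B n).Group := finite_W cs
  have R := rgdC_model M hA hp0 cs
  refine false_of_casc R (GG_eq_top M hn cs) ?_ hc hpσ hl hlσ h2S (sq_eq_one M hA hp0 h1 (by rw [h2]; ring) cs)
    (CC.casc_C cs fun k => ?_)
  · exact WittModel.G1_eq_top M hn cs
  · rw [card_long M hA hp0 (KindC.ee_fr k), h2]

end Model

open Cfsg

/-- `PSp₄(q)` (and `PSp_{2m}(q)`, `m ≥ 2`). -/
theorem hc_PSp {F : Type*} [Field F] [Finite F] {m : ℕ} (hm : 2 ≤ m) {σ : Set ℕ} (hc : HC (PSp m F) σ) : False := by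
  obtain ⟨p, hp⟩ := CharP.exists F
  have : Fact p.Prime := ⟨CharP.char_is_prime F p⟩
  obtain ⟨k, hk⟩ := RowsC.card_eq_pow F p
  have hk0 : k ≠ 0 := by
    rintro rfl
    rw [pow_zero] at hk
    exact (Finite.one_lt_card (α := F)).ne' hk
  obtain ⟨l, hl, hd, hpl⟩ := exists_l Fact.out hk
  have h1 := RGC.cast_neg_one hd
  have key : p ∈ σ ∧ l ∈ σ ∧ 2 ∣ Nat.card (PSp m F) := by
    by_cases hp2 : p = 2
    · have hl2 : l ≠ 2 := by
        rintro rfl
        rw [hk, hp2] at hd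
        have h3 : 2 ∣ 2 ^ k := dvd_pow_self 2 hk0
        omega
      have h3 : H94.PG.Adj (PSp m F) l 2 := by
        refine H377.psp_adj_two_of_dvd (i := 1) le_rfl (by omega) hl hl2 ?_
        have h4 : Nat.card F ^ (2 * 1) - 1 = (Nat.card F + 1) * (Nat.card F - 1) := by
          rw [mul_one, ← one_pow 2, Nat.sq_sub_sq, one_pow]
        rw [h4]
        exact hd.mul_right _
      exact ⟨hp2 ▸ hc.two, adj_mem hc h3, two_dvd_of_adj h3⟩
    · have h3 : H94.PG.Adj (PSp m F) p 2 :=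
        H377.psp_adj_two_of_char hm Fact.out hp2 (hk ▸ dvd_pow_self p hk0)
      exact ⟨adj_mem hc h3, (hpl.resolve_left hp2) ▸ hc.two, two_dvd_of_adj h3⟩
  refine false_of_model_small (KInstSp.model m F) (AmbT.of_amb WittU.amb_Sp p) (p0 := SpIdent.adm 1) one_ne_zero
    (by omega) hl ?_ ?_ hc key.1 key.2.1 key.2.2
  · rw [h1]; ring
  · rw [card_adm_Sp, h1]

/-- `PSU_N(q)`, `N ≥ 3`, `(N, q) ≠ (3, 2)`. -/
theorem hc_PSU {F : Type*} [Field F] [Fintype F] {q N : ℕ} (hF : Fintype.card F = q ^ 2) (hN : 3 ≤ N)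
    (hNq : N = 3 → q ≠ 2) {σ : Set ℕ} (hc : HC (PSU N F q) σ) : False := by
  obtain ⟨p, hp⟩ := CharP.exists F
  have : Fact p.Prime := ⟨CharP.char_is_prime F p⟩
  obtain ⟨k, hk⟩ := RowsC.card_eq_pow F p
  obtain ⟨j, -, hj⟩ := (Nat.dvd_prime_pow Fact.out).1 (show q ∣ p ^ k by
    rw [← hk, Nat.card_eq_fintype_card, hF]; exact dvd_pow_self q two_ne_zero)
  have hq := LieClassical.HermBasic.two_le hF
  have hj0 : j ≠ 0 := by
    rintro rfl
    rw [pow_zero] at hj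
    omega
  have key : ∃ l : ℕ, l.Prime ∧ l ∣ q + 1 ∧ p ∈ σ ∧ l ∈ σ ∧ 2 ∣ Nat.card (PSU N F q) := by
    by_cases hp2 : p = 2
    · have hodd : ¬ 2 ∣ q + 1 := by
        intro h2
        have h3 : 2 ∣ q := by
          rw [hj, hp2]
          exact dvd_pow_self 2 hj0
        omega
      rcases eq_or_ne N 3 with rfl | hN3
      · obtain ⟨t⟩ := H948.UTorus.exists_tor hF (m := 2) (by omega)
        have hq1 : ¬ (q + 1) ∣ 2 + 1 := by
          intro h
          have := Nat.le_of_dvd (by norm_num) h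
          have := hNq rfl
          omega
        obtain ⟨s, w, c, hs, hsq, hw, hc', h2, h3⟩ := H948.UMain.exists_scal_ext hF t (by omega) hq1
        have hs2 : s ≠ 2 := by
          rintro rfl
          exact hodd hsq
        have h4 := H948.UMain.adj_two_of_scal_ext hF t le_rfl hs hs2 hw h2 h3
        exact ⟨s, hs, hsq, hp2 ▸ hc.two, adj_mem hc h4, two_dvd_of_adj h4⟩
      · obtain ⟨l, hl, hd⟩ := Nat.exists_prime_and_dvd (n := q + 1) (by omega)
        have hl2 : l ≠ 2 := by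
          rintro rfl
          exact hodd hd
        have h4 := H948.UMain.adj_two_of_lt hF (n := N) (by omega) hl hl2 (i := 0) (by omega)
          (by rw [H948.UMain.ph_zero]; exact hd)
        exact ⟨l, hl, hd, hp2 ▸ hc.two, adj_mem hc h4, two_dvd_of_adj h4⟩
    · have h3 := H948.UMain.adj_two_of_char hF hN (Fact.out : p.Prime) hp2 (hj ▸ dvd_pow_self p hj0)
      refine ⟨2, Nat.prime_two, ?_, adj_mem hc h3, hc.two, two_dvd_of_adj h3⟩
      have h4 : Odd q := by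
        rw [hj]
        exact ((Fact.out : p.Prime).odd_of_ne_two hp2).pow
      obtain ⟨c, hc⟩ := h4
      exact ⟨c + 1, by omega⟩
  obtain ⟨l, hl, hd, hpσ, hlσ, h2S⟩ := key
  have h1 := RGC.cast_neg_one hd
  obtain ⟨m, hm⟩ : ∃ m, N = 2 * m ∨ N = 2 * m + 1 := ⟨N / 2, by omega⟩
  obtain ⟨W, -⟩ := WittU.exists_wframe hF hm
  obtain ⟨p0, hp0, -⟩ := WittU.exists_adm hF W
  have h2 : ((Nat.card F : ℕ) : ZMod l) ^ 2 = 1 := by
    rw [Nat.card_eq_fintype_card, hF, Nat.cast_pow, h1]; ring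
  refine false_of_model_small (KInstU.model hF (by omega) W) (AmbT.of_amb (WittU.amb_U hF W) p) hp0 (by omega) hl h2 ?_
    hc hpσ hlσ h2S
  rcases hm with hm | hm
  · rw [card_adm_U_even hF W hm, h1]
  · rw [card_adm_U_odd hF W hm, Nat.cast_pow, h1]; ring

end Cfsg.Agent.H581.RowsF
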