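import Mathlib
import Cfsg.Agent.H581.RowsE
import Cfsg.Agent.H581.RowsF
import Cfsg.Agent.H378.TwRows
import Cfsg.Agent.H378.ExcNear
import Cfsg.Agent.H934.HeisE6
import Cfsg.Agent.H554.LieTw

/-!
# No Hall coverings: `G₂(q)`, `³D₄(q)`, `E₆(q)`, `²E₆(q)` (helper581)
-/

set_option autoImplicit false
set_option linter.unusedSectionVars false

namespace Cfsg.Agent.H581.RowsG

open CoxeterSystem Cfsg.Lie Cfsg.Agent.ChevalleyStructure Cfsg.Agent.ChevalleyStructure.CoxeterGeom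
  Cfsg.Agent.ChevalleyStructure.CoxeterGeomTypes
  Cfsg.Agent.Tits.Roots Cfsg.Agent.Tits.Core Cfsg.Agent.Nodes.Reps Cfsg.Agent.Nodes.BNOf
  Cfsg.Agent.Nodes.RGDChev Cfsg.Agent.Nodes.RGDFold Cfsg.Agent.Nodes.RGDLib
  Cfsg.Agent.Nodes.StabComb Cfsg.Agent.Nodes.Bruhat Cfsg.Agent.H554.RG Cfsg.Agent.Nodes.Coroot Cfsg.Agent.Nodes.NormX Cfsg.Agent.H554.LieE
open Cfsg.Agent.KFacts.SLRow.Chev (card_XV)
open Cfsg.Agent.H581 Cfsg.Agent.H581.RGC Cfsg.Agent.H581.RowsF
open Cfsg.Agent.ChevalleyStructure.TwistedFix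

universe u

section Two

variable {W S : Type*} [Group W] [Finite W] [Group S] {M : CoxeterMatrix (Fin 2)} {cs : CoxeterSystem M W}
  {A : Fin 2 → Fin 2 → ℤ} {h : IsCartan M A}

/-- rank two: a root and a simple root orthogonal to it -/
theorem casc_two {θ : Fin 2 → ℤ} (hθ : IsRoot cs h θ) (hθ0 : 0 ≤ θ) {j : Fin 2} (hj : pairing A j θ = 0)
    {X : (Fin 2 → ℤ) → Subgroup S} {l : ℕ} (h0 : ((Nat.card (X θ) : ℕ) : ZMod l) = -1)
    (h1 : ((Nat.card (X (sr j)) : ℕ) : ZMod l) = -1) : Casc cs h X l ![θ, sr j] := by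
  classical
  have : Fintype W := Fintype.ofFinite W
  have hs : IsRoot cs h (sr j) := isRoot_sr cs h j
  have hf : form cs h θ (sr j) = 0 := form_sr_eq_zero_iff.2 (mem_orth.2 hj)
  have hf' : form cs h (sr j) θ = 0 := by rw [form_comm]; exact hf
  refine ⟨?_, ?_, ?_, ?_, ?_, ?_⟩
  · intro k
    fin_cases k
    · exact hθ
    · exact hs
  · intro k
    fin_cases k
    · exact hθ0
    · exact sr_nonneg j
  · intro a b hab
    fin_cases a <;> fin_cases b
    · exact absurd rfl hab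
    · exact (cpr_zero_iff cs h _ hs).2 hf
    · exact (cpr_zero_iff cs h _ hθ).2 hf'
    · exact absurd rfl hab
  · intro x hx
    have hx0 : form cs h x θ = 0 := (cpr_zero_iff cs h x hθ).1 (hx 0)
    have hx1 : form cs h x (sr j) = 0 := (cpr_zero_iff cs h x hs).1 (hx 1)
    -- the other node
    obtain ⟨i, hij⟩ : ∃ i : Fin 2, i ≠ j := exists_ne j
    have hall : ∀ k : Fin 2, k ≠ j → k = i := by
      intro k hk
      fin_cases i <;> fin_cases j <;> fin_cases k <;> simp_all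
    have hθi : θ i ≠ 0 := by
      intro h0
      have h2 : θ = sr j := hθ.eq_sr hθ0 j fun k hk => by rw [hall k hk]; exact h0
      have h3 := form_pos cs h hs.ne_zero
      rw [h2] at hf
      exact h3.ne' hf
    have h4 : θ i • x - x i • θ = (θ i * x j - x i * θ j) • sr j := by
      funext k
      by_cases hk : k = j
      · subst hk
        simp [sr_self]
      · rw [hall k hk]
        simp only [Pi.sub_apply, Pi.smul_apply, smul_eq_mul, sr_ne hij]
        ring
    have h5 : form cs h ((θ i * x j - x i * θ j) • sr j) (sr j) = 0 := by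
      rw [← h4, form_sub_left, form_smul_left, form_smul_left, hx1, hf]
      ring
    rw [form_smul_left] at h5
    have h6 : θ i * x j - x i * θ j = 0 := (mul_eq_zero.1 h5).resolve_right (form_pos cs h hs.ne_zero).ne'
    rw [h6, zero_smul, sub_eq_zero] at h4
    have h7 : form cs h (x i • θ) θ = 0 := by
      rw [← h4, form_smul_left, hx0, mul_zero]
    rw [form_smul_left] at h7
    have h8 : x i = 0 := (mul_eq_zero.1 h7).resolve_right (form_pos cs h hθ.ne_zero).ne'
    rw [h8, zero_smul] at h4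
    exact (smul_eq_zero.1 h4).resolve_left hθi
  · intro k x hx hx0 hneg a ha
    fin_cases k
    · exact absurd ha (by simp)
    · have ha0 : a = 0 := by
        fin_cases a
        · rfl
        · exact absurd ha (lt_irrefl _)
      subst ha0
      have hxj : x = sr j := by
        by_contra hne
        apply hneg
        have h2 := hx.simple_nonneg hx0 j hne
        rw [rep_simple_eq] at h2
        show 0 ≤ x - cpr cs h x (sr j) • sr j
        rw [cpr_sr]
        exact h2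
      subst hxj
      exact (cpr_zero_iff cs h _ hθ).2 hf'
  · intro k
    fin_cases k
    · exact h0
    · exact h1

end Two

open Cfsg.Agent.H378 Cfsg.Agent.H378.ExcAdj Cfsg.Agent.H378.ExcNear

/-- the exceptional torus primes do not divide `q (q + 1)` -/
theorem od_absurd {q r m : ℕ} (hr : r.Prime) (hq : 1 ≤ q) (h : od q r = m) (hm : 2 < m) (hd : r ∣ q ∨ r ∣ q + 1) :
    False := by
  rcases hd with hd | hd
  · have h1 : r ∣ q ^ m - 1 := dvd_of_od_dvd hq (by rw [h])
    have h2 : r ∣ q ^ m := hd.trans (dvd_pow_self q (by omega))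
    have h3 : 1 ≤ q ^ m := Nat.one_le_pow _ _ hq
    have h4 := Nat.dvd_sub h2 h1
    rw [Nat.sub_sub_self h3] at h4
    exact hr.one_lt.ne' (Nat.dvd_one.1 h4)
  · have h1 : r ∣ q ^ 2 - 1 := by
      have h4 : q ^ 2 - 1 = (q + 1) * (q - 1) := by
        rw [← one_pow 2, Nat.sq_sub_sq, one_pow]
      rw [h4]
      exact hd.mul_right _
    have h2 := od_dvd hq h1
    rw [h] at h2
    have := Nat.le_of_dvd (by norm_num) h2
    omega

theorem hc_G2 (K : Type u) [Field K] [Finite K] {σ : Set ℕ} (hc : HC ↥(chevG2.group K) σ) : False := by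
  have hF : Fintype K := Fintype.ofFinite K
  have hp : IsType chevG2 2 CoxeterMatrix.G₂ := by simp
  obtain ⟨p, hp'⟩ := CharP.exists K
  have : Fact p.Prime := ⟨CharP.char_is_prime K p⟩
  obtain ⟨e, he⟩ := RowsC.card_eq_pow K p
  have he0 : e ≠ 0 := by
    rintro rfl
    rw [pow_zero] at he
    exact (Finite.one_lt_card (α := K)).ne' he
  obtain ⟨l, hl, hd⟩ := Nat.exists_prime_and_dvd (n := Nat.card K + 1) (by
    have := Nat.card_pos (α := K)
    omega)
  have h1 := RGC.cast_neg_one hd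
  have hcard := Cfsg.Agent.S1059.result (F := K) rfl
  rw [← Nat.card_eq_fintype_card] at hcard
  have hq : 1 ≤ Nat.card K := Nat.card_pos
  have hmem : ∀ r : ℕ, r.Prime → r ∣ Nat.card ↥(chevG2.group K) → (r ∣ Nat.card K ∨ r ∣ Nat.card K + 1) → r ∈ σ := by
    intro r hr hdr h2
    rcases adj_G2 K hr hdr with h | h | h | h
    · exact h ▸ hc.two
    · exact adj_mem hc h
    · exact (od_absurd hr hq h (by norm_num) h2).elim
    · exact (od_absurd hr hq h (by norm_num) h2).elim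
  have hfac : Nat.card K + 1 ∣ Nat.card ↥(chevG2.group K) := by
    rw [hcard]
    have h4 : Nat.card K ^ 2 - 1 = (Nat.card K + 1) * (Nat.card K - 1) := by
      rw [← one_pow 2, Nat.sq_sub_sq, one_pow]
    rw [h4]
    exact ((dvd_mul_right _ _).mul_left _).mul_right _
  have hpK : p ∣ Nat.card K := he ▸ dvd_pow_self p he0
  have hpc : p ∣ Nat.card ↥(chevG2.group K) := by
    rw [hcard]
    exact ((hpK.trans (dvd_pow_self _ (by norm_num))).mul_right _).mul_right _
  have h2c : 2 ∣ Nat.card ↥(chevG2.group K) := by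
    rcases Nat.even_or_odd (Nat.card K) with h | h
    · rw [hcard]
      exact (((even_iff_two_dvd.1 h).trans (dvd_pow_self _ (by norm_num))).mul_right _).mul_right _
    · exact (even_iff_two_dvd.1 h.add_one).trans hfac
  let cs := CoxeterMatrix.G₂.toCoxeterSystem
  have hW : Finite CoxeterMatrix.G₂.Group := finite_W hp cs
  have R := rgd (K := K) hp cs p
  have hfin : Finite ↥(chevG2.group K) := inferInstance
  have hX := fun x hx => card_XV hp K cs (x := x) hx
  have hθ : IsRoot cs hp.isCartan (vec chevG2 2 9) := (isRoot_iff hp cs _).2 ⟨9, by decide +kernel, rfl⟩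
  refine false_of_casc R (GG_eq_top hp K cs) (G1_eq_top hp cs) hc (hmem p Fact.out hpc (Or.inl hpK)) hl
    (hmem l hl (hd.trans hfac) (Or.inr hd)) h2c ?_
    (casc_two (j := 1) hθ (fun i => (by decide +kernel : ∀ i, (0 : ℤ) ≤ vec chevG2 2 9 i) i)
      (by decide +kernel) ?_ ?_)
  · intro x hx
    rw [hX x hx, h1]
    ring
  · rw [hX _ hθ, h1]
  · rw [hX _ (isRoot_sr cs _ _), h1]

/-! ### `³D₄(q)` -/

theorem hc_3D4 {K : Type} [Field K] [Fintype K] {q : ℕ} (hq : IsPrimePow q) (hK : Fintype.card K = q ^ 3) {σ : Set ℕ}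
    (hc : HC ↥(twistedD4 K q) σ) : False := by
  obtain ⟨φ, hφ⟩ := D4Fixed.exists_frob hq hK
  have hle := D4Fixed.twisted_le_fix hK hφ
  obtain ⟨p, hpc⟩ := CharP.exists K
  have : Fact p.Prime := ⟨CharP.char_is_prime K p⟩
  let cs := CoxeterMatrix.G₂.toCoxeterSystem
  have hW : Finite CoxeterMatrix.G₂.Group := Cfsg.Agent.Nodes.RGDFold.finite_W
    (hp := Cfsg.Agent.Nodes.RGDTwD4.hp) cs Nodes.RGDTwD4.isCartan Nodes.RGDTwD4.foldData
  have R := Nodes.RGDTwD4.rgd cs hK hφ p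
  have c0 := ClosedExc.TwD4.card_X0 hφ hle hq.two_le hK
  have c1 := ClosedExc.TwD4.card_X1 (K := K) hφ hle
  rw [hK] at c1
  have hq2 := hq.two_le
  obtain ⟨l, hl, hd⟩ := Nat.exists_prime_and_dvd (n := q + 1) (by omega)
  have h1 := RGC.cast_neg_one hd
  have e1 : (((q ^ 3 : ℕ) : ZMod l)) = -1 := by rw [Nat.cast_pow, h1]; ring
  have hr : rep cs Nodes.RGDTwD4.isCartan (cs.simple 0 * cs.simple 1) (sr 0) = ![2, 3] := by
    rw [rep_mul_apply, rep_refl, rep_refl]
    decide +kernel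
  have hroot : IsRoot cs Nodes.RGDTwD4.isCartan (![2, 3] : Fin 2 → ℤ) := ⟨_, 0, hr.symm⟩
  have c2 : Nat.card (Nodes.RGDTwD4.X φ q ![2, 3]) = q := by
    rw [← hr, Cfsg.Agent.Nodes.CardSup.card_X_rep R _ (isRoot_sr cs _ _), c0]
  have hfin : Finite ↥(twistedD4 K q) := inferInstance
  have hcard := Cfsg.Agent.S1067.result hq hK
  have hmem : ∀ r : ℕ, r.Prime → r ∣ Nat.card ↥(twistedD4 K q) → (r ∣ q ∨ r ∣ q + 1) → r ∈ σ := by
    intro r hr hdr h2
    rcases H378.TwRows.near_3D4 hq hK hr hdr with h | h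
    · exact near_mem hc h
    · exact (od_absurd hr (by omega) h (by norm_num) h2).elim
  have hfac : q + 1 ∣ Nat.card ↥(twistedD4 K q) := by
    rw [hcard]
    have h4 : q ^ 2 - 1 = (q + 1) * (q - 1) := by
      rw [← one_pow 2, Nat.sq_sub_sq, one_pow]
    rw [h4]
    exact (((dvd_mul_right _ _).mul_left _).mul_right _).mul_right _
  have hqc : q ∣ Nat.card ↥(twistedD4 K q) := by
    rw [hcard]
    exact (((dvd_pow_self q (by norm_num)).mul_right _).mul_right _).mul_right _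
  have hpq : p ∣ q := by
    obtain ⟨e, he⟩ := RowsC.card_eq_pow K p
    rw [Nat.card_eq_fintype_card, hK] at he
    have h3 : p ∣ q ^ 3 := by
      rw [he]
      refine dvd_pow_self p ?_
      rintro rfl
      rw [pow_zero] at he
      have : 1 < q ^ 3 := Nat.one_lt_pow (by norm_num) (by omega)
      omega
    exact (Fact.out : p.Prime).dvd_of_dvd_pow h3
  have h2c : 2 ∣ Nat.card ↥(twistedD4 K q) := by
    rcases Nat.even_or_odd q with h | h
    · exact (even_iff_two_dvd.1 h).trans hqc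
    · exact (even_iff_two_dvd.1 h.add_one).trans hfac
  refine false_of_casc R ?_ (Nodes.RGDTwD4.G1_eq_top cs hK hφ) hc
    (hmem p Fact.out (hpq.trans hqc) (Or.inl hpq)) hl
    (hmem l hl (hd.trans hfac) (Or.inr hd)) h2c ?_
    (casc_two (j := 1) hroot (fun i => (by decide : ∀ i, (0 : ℤ) ≤ ![2, 3] i) i) (by decide +kernel) ?_ ?_)
  · rw [eq_top_iff, ← Nodes.RGDTwD4.G1_eq_top cs hK hφ]
    exact RGD.Sup_le fun x hx => X_le_GG hx
  · refine H554.LieTw.sq_of_simple R ?_
    intro i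
    fin_cases i
    · show ((Nat.card (Nodes.RGDTwD4.X φ q (sr 0)) : ℕ) : ZMod l) ^ 2 = 1
      rw [c0, h1]; ring
    · show ((Nat.card (Nodes.RGDTwD4.X φ q (sr 1)) : ℕ) : ZMod l) ^ 2 = 1
      rw [c1, e1]; ring
  · rw [c2, h1]
  · rw [c1, e1]

/-! ### `E₆(q)` -/

/-- a number with prime divisors of order `m` modulo `q` is prime to the other factors -/
theorem coprime_of_od {q n m k : ℕ} (hq : 1 ≤ q) (h : ∀ r : ℕ, r.Prime → r ∣ n → od q r = m) (hk : ¬ m ∣ k) :
    n.Coprime (q ^ k - 1) := by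
  rw [Nat.coprime_iff_gcd_eq_one]
  by_contra hne
  obtain ⟨r, hr, hd⟩ := Nat.exists_prime_and_dvd hne
  have h1 := h r hr (hd.trans (Nat.gcd_dvd_left _ _))
  have h2 := od_dvd hq (hd.trans (Nat.gcd_dvd_right _ _))
  rw [h1] at h2
  exact hk h2

theorem coprime_self {q n m k : ℕ} (hq : 1 ≤ q) (hm : 2 < m) (h : ∀ r : ℕ, r.Prime → r ∣ n → od q r = m) :
    n.Coprime (q ^ k) := by
  refine Nat.Coprime.pow_right k ?_
  rw [Nat.coprime_iff_gcd_eq_one]
  by_contra hne
  obtain ⟨r, hr, hd⟩ := Nat.exists_prime_and_dvd hne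
  exact od_absurd hr hq (h r hr (hd.trans (Nat.gcd_dvd_left _ _))) hm (Or.inl (hd.trans (Nat.gcd_dvd_right _ _)))

theorem hc_E6 (K : Type u) [Field K] [Finite K] (hs : IsSimpleGroup ↥(chevE6.group K)) {σ : Set ℕ}
    (hc : HC ↥(chevE6.group K) σ) : False := by
  have hF : Fintype K := Fintype.ofFinite K
  have hfin : Finite ↥(chevE6.group K) := inferInstance
  have hcard := Cfsg.Agent.S1063.result (F := K) rfl
  rw [← Nat.card_eq_fintype_card] at hcard
  have hq : 1 < Nat.card K := Finite.one_lt_card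
  have hfac : Nat.card ↥(chevE6.group K) ∣ Nat.card K ^ 36 * (Nat.card K ^ 2 - 1) * (Nat.card K ^ 5 - 1) *
      (Nat.card K ^ 6 - 1) * (Nat.card K ^ 8 - 1) * (Nat.card K ^ 9 - 1) * (Nat.card K ^ 12 - 1) := by
    rw [← hcard]
    exact dvd_mul_left _ _
  have h2c : 2 ∣ Nat.card ↥(chevE6.group K) := by
    have hp : IsType chevE6 6 CoxeterMatrix.E₆ := by simp
    obtain ⟨p, hp'⟩ := CharP.exists K
    have : Fact p.Prime := ⟨CharP.char_is_prime K p⟩
    obtain ⟨e, he⟩ := RowsC.card_eq_pow K p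
    obtain ⟨q, hq, hd, hpq⟩ := exists_l Fact.out he
    let cs := CoxeterMatrix.E₆.toCoxeterSystem
    have hW : Finite CoxeterMatrix.E₆.Group := finite_W hp cs
    have R := rgd (K := K) hp cs p
    have hX := fun x hx => card_XV hp K cs (x := x) hx
    exact (mem_of_two R hc (j := 0) (k := 1) (by decide) (by decide) hq
      (by rw [hX _ (isRoot_sr cs _ _)]; exact hd) hpq).2.2
  obtain ⟨H, hH⟩ := hc.exists_hall h2c
  have hod : ∀ r : ℕ, r.Prime → r ∣ H.index → od (Nat.card K) r = 9 := by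
    intro r hr hd
    rcases near_E6 K hr (hd.trans H.index_dvd_card) with h | h
    · exact absurd hd (hH.index r hr (near_mem hc h))
    · exact h
  have h1 : H.index ∣ Nat.card K ^ 9 - 1 := by
    have h2 := (H.index_dvd_card).trans hfac
    have h3 := (coprime_of_od hq.le hod (k := 12) (by norm_num)).dvd_of_dvd_mul_right h2
    have c0 := coprime_self (k := 36) hq.le (by norm_num) hod
    have c2 := coprime_of_od hq.le hod (k := 2) (by norm_num)
    have c5 := coprime_of_od hq.le hod (k := 5) (by norm_num)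
    have c6 := coprime_of_od hq.le hod (k := 6) (by norm_num)
    have c8 := coprime_of_od hq.le hod (k := 8) (by norm_num)
    exact ((((c0.mul_right c2).mul_right c5).mul_right c6).mul_right c8).dvd_of_dvd_mul_left h3
  have h4 : Nat.card K ^ 9 - 1 = (Nat.card K ^ 3 - 1) * (Nat.card K ^ 6 + Nat.card K ^ 3 + 1) := by
    obtain ⟨t, ht⟩ : ∃ t, Nat.card K ^ 3 = t + 1 := ⟨Nat.card K ^ 3 - 1, by
      have := Nat.one_le_pow 3 (Nat.card K) hq.le
      omega⟩
    have e1 : Nat.card K ^ 9 = (t + 1) ^ 3 := by rw [← ht, ← pow_mul]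
    have e2 : Nat.card K ^ 6 = (t + 1) ^ 2 := by rw [← ht, ← pow_mul]
    have e3 : (t + 1) ^ 3 = t * ((t + 1) ^ 2 + (t + 1) + 1) + 1 := by ring
    rw [e1, e2, ht, e3, Nat.add_sub_cancel, Nat.add_sub_cancel]
  rw [h4] at h1
  have h5 := (coprime_of_od hq.le hod (k := 3) (by norm_num)).dvd_of_dvd_mul_left h1
  have h6 := Nat.le_of_dvd (by positivity) h5
  have h7 := H934.HeisE6.two_mul_le hs H (hc.ne_top hH)
  rw [← Nat.card_eq_fintype_card] at h7
  have h8 : Nat.card K ^ 6 + Nat.card K ^ 3 + 1 ≤ 3 * Nat.card K ^ 6 := by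
    have e1 : Nat.card K ^ 3 ≤ Nat.card K ^ 6 := Nat.pow_le_pow_right hq.le (by norm_num)
    have e2 : 1 ≤ Nat.card K ^ 6 := Nat.one_le_pow _ _ hq.le
    omega
  have h9 : 2 ^ 5 * Nat.card K ^ 6 ≤ Nat.card K ^ 11 := by
    have e1 : 2 ^ 5 ≤ Nat.card K ^ 5 := Nat.pow_le_pow_left hq 5
    calc 2 ^ 5 * Nat.card K ^ 6 ≤ Nat.card K ^ 5 * Nat.card K ^ 6 := Nat.mul_le_mul_right _ e1
      _ = Nat.card K ^ 11 := by ring
  have h10 : 0 < Nat.card K ^ 6 := by positivity
  omega

/-! ### `²E₆(q)` -/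

section Tab

variable {l : ℕ} {W S : Type*} [Group W] [Finite W] [Group S] {M : CoxeterMatrix (Fin l)} {cs : CoxeterSystem M W}
  {A : Fin l → Fin l → ℤ} {h : IsCartan M A}

/-- evaluation of a word -/
def ev (A : Fin l → Fin l → ℤ) (L : List (Fin l)) (x : Fin l → ℤ) : Fin l → ℤ := L.foldr (fun i y => Nodes.RGDFold.refl A i y) x

omit [Finite W] in
theorem rep_word (L : List (Fin l)) (x : Fin l → ℤ) : rep cs h (cs.wordProd L) x = ev A L x := by
  induction L with
  | nil => rw [CoxeterSystem.wordProd_nil, map_one, Module.End.one_apply]; rfl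
  | cons i L ih =>
    rw [CoxeterSystem.wordProd_cons, rep_mul_apply, ih, rep_refl]
    rfl

theorem cpr_word (L : List (Fin l)) (j : Fin l) (x : Fin l → ℤ) :
    cpr cs h x (rep cs h (cs.wordProd L) (sr j)) = pairing A j (ev A L.reverse x) := by
  rw [cpr_rep_sr, ← CoxeterSystem.wordProd_reverse, rep_word]

theorem cpr_sum {y : Fin l → ℤ} (hy : IsRoot cs h y) (x : Fin l → ℤ) :
    cpr cs h x y = ∑ i, x i * cpr cs h (sr i) y := by
  conv_lhs => rw [eq_sum_sr x]
  have h1 : ∀ s : Finset (Fin l), cpr cs h (∑ i ∈ s, x i • (sr i : Fin l → ℤ)) y = ∑ i ∈ s, x i * cpr cs h (sr i) y := by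
    intro s
    induction s using Finset.induction_on with
    | empty =>
      rw [Finset.sum_empty, Finset.sum_empty]
      have h0 := cpr_smul cs h 0 (0 : Fin l → ℤ) hy
      rwa [zero_smul, zero_mul] at h0
    | insert a s ha ih =>
      rw [Finset.sum_insert ha, Finset.sum_insert ha, cpr_add cs h _ _ hy, ih, cpr_smul cs h _ _ hy]
  exact h1 Finset.univ

/-- a cascade from tabulated words -/
theorem casc_of_tab {N : ℕ} (V : ℕ → Fin l → ℤ) (hV : ∀ z, IsRoot cs h z → ∃ r < N, V r = z) {f : ℕ}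
    (w : Fin f → List (Fin l)) (j : Fin f → Fin l) (fr cf : Fin f → Fin l → ℤ)
    (hfr : ∀ k, ev A (w k) (sr (j k)) = fr k)
    (hcf : ∀ k i, pairing A (j k) (ev A (w k).reverse (sr i)) = cf k i) (pos : ∀ k i, 0 ≤ fr k i)
    (full : ∀ i j, ∑ k, cf k j * fr k i = if i = j then 2 else 0)
    (orth : ∀ j k, j ≠ k → ∑ i, fr j i * cf k i = 0)
    (tri : ∀ r < N, (∀ i, 0 ≤ V r i) → ∀ k,
      (∀ i, 0 ≤ V r i - (∑ i, V r i * cf k i) * fr k i) ∨ ∀ j, j < k → ∑ i, V r i * cf j i = 0)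
    {X : (Fin l → ℤ) → Subgroup S} {q : ℕ} (hX : ∀ k, ((Nat.card (X (fr k)) : ℕ) : ZMod q) = -1) :
    Casc cs h X q fr := by
  have hroot : ∀ k, IsRoot cs h (fr k) := fun k => by
    rw [← hfr k, ← rep_word (cs := cs) (h := h)]
    exact ⟨_, _, rfl⟩
  have hcpr : ∀ k x, cpr cs h x (fr k) = ∑ i, x i * cf k i := by
    intro k x
    rw [cpr_sum (hroot k)]
    refine Finset.sum_congr rfl fun i _ => ?_
    congr 1
    rw [← hcf k i, ← cpr_word (cs := cs) (h := h), rep_word, hfr]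
  refine ⟨hroot, fun k i => pos k i, ?_, ?_, ?_, hX⟩
  · intro j k hjk
    rw [hcpr]
    exact orth j k hjk
  · intro x hx
    funext i
    have h1 : 2 * x i = ∑ k, (∑ j, x j * cf k j) * fr k i := by
      simp only [Finset.sum_mul]
      rw [Finset.sum_comm]
      have h2 : ∀ j, ∑ k, x j * cf k j * fr k i = x j * if i = j then 2 else 0 := by
        intro j
        rw [← full i j, Finset.mul_sum]
        exact Finset.sum_congr rfl fun k _ => mul_assoc _ _ _
      rw [Finset.sum_congr rfl fun j _ => h2 j, Finset.sum_eq_single i]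
      · rw [if_pos rfl]; ring
      · intro j _ hj
        rw [if_neg hj.symm, mul_zero]
      · intro hi
        exact absurd (Finset.mem_univ i) hi
    have h2 : ∀ k, ∑ j, x j * cf k j = 0 := fun k => by rw [← hcpr]; exact hx k
    simp only [h2, zero_mul, Finset.sum_const_zero] at h1
    rw [Pi.zero_apply]
    omega
  · intro k x hx hx0 hneg j hjk
    obtain ⟨r, hr, rfl⟩ := hV x hx
    rw [hcpr] at hneg ⊢
    rcases tri r hr (fun i => hx0 i) k with h1 | h1
    · exact absurd (fun i => h1 i) hneg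
    · exact h1 j hjk

end Tab

namespace TE6

open Cfsg.Agent.Nodes.RGDTwE6 Cfsg.Agent.GpExc.TwCard
open Cfsg.Agent.ChevalleyStructure.TwE6Basic (exists_frob)

/-- words of the frame roots -/
def w : Fin 4 → List (Fin 4) := ![[0, 1, 2, 1, 0, 3, 2], [3, 2], [2], []]

/-- the frame -/
def fr : Fin 4 → Fin 4 → ℤ := ![![2, 3, 4, 2], ![0, 1, 2, 2], ![0, 1, 2, 0], ![0, 1, 0, 0]]

/-- the functionals -/
def cf : Fin 4 → Fin 4 → ℤ := ![![1, 0, 0, 0], ![-1, 0, 0, 1], ![-1, 0, 1, -1], ![-1, 2, -1, 0]]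

/-- the indices -/
def idx : Fin 4 → ℕ := ![71, 60, 44, 39]

theorem hfr : ∀ k, ev A (w k) (sr ((fun _ => 1 : Fin 4 → Fin 4) k)) = fr k := by decide +kernel

theorem hcf : ∀ k i, pairing A ((fun _ => 1 : Fin 4 → Fin 4) k) (ev A (w k).reverse (sr i)) = cf k i := by
  decide +kernel

theorem pos : ∀ k i, 0 ≤ fr k i := by decide +kernel

theorem full : ∀ i j, ∑ k, cf k j * fr k i = if i = j then 2 else 0 := by decide +kernel

theorem orth : ∀ j k, j ≠ k → ∑ i, fr j i * cf k i = 0 := by decide +kernel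

theorem tri : ∀ r < chevE6.nroots, (∀ i, 0 ≤ V chevE6 J r i) → ∀ k,
    (∀ i, 0 ≤ V chevE6 J r i - (∑ i, V chevE6 J r i * cf k i) * fr k i) ∨
      ∀ j, j < k → ∑ i, V chevE6 J r i * cf j i = 0 := by decide +kernel

theorem hidx : ∀ k, V chevE6 J (idx k) = fr k ∧ ex (idx k) = 1 ∧ idx k < chevE6.nroots := by decide +kernel

end TE6

open Cfsg.Agent.Nodes.RGDTwE6 Cfsg.Agent.GpExc.TwCard in
open Cfsg.Agent.ChevalleyStructure.TwE6Basic (exists_frob) in
theorem hc_2E6 {K : Type} [Field K] [Fintype K] {q : ℕ} (hq : IsPrimePow q) (hK : Fintype.card K = q ^ 2) {σ : Set ℕ}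
    (hc : HC ↥(twistedE6 K q) σ) : False := by
  obtain ⟨φ, hφ, hqq⟩ := exists_frob hq hK
  obtain ⟨p, hpc⟩ := CharP.exists K
  have : Fact p.Prime := ⟨CharP.char_is_prime K p⟩
  let cs := CoxeterMatrix.F₄.toCoxeterSystem
  have hW : Finite CoxeterMatrix.F₄.Group := Cfsg.Agent.Nodes.RGDFold.finite_W
    (hp := Cfsg.Agent.Nodes.RGDTwE6.hp) cs isCartan foldData
  have R := Nodes.RGDTwE6.rgd cs hφ hqq p
  have cX := card_simple hφ hqq hq.one_lt hK
  have hq2 := hq.two_le
  -- `q` is a power of `p`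
  obtain ⟨j, hj⟩ : ∃ j, q = p ^ j := by
    obtain ⟨e, he⟩ := RowsC.card_eq_pow K p
    rw [Nat.card_eq_fintype_card, hK] at he
    obtain ⟨j, -, hj⟩ := (Nat.dvd_prime_pow Fact.out).1 (show q ∣ p ^ e by rw [← he]; exact dvd_pow_self q two_ne_zero)
    exact ⟨j, hj⟩
  obtain ⟨l, hl, hd, hpl⟩ := exists_l (Fact.out : p.Prime) hj
  have h1 := RGC.cast_neg_one hd
  have hfin : Finite ↥(twistedE6 K q) := inferInstance
  have h0 : Nat.card (Nodes.RGDTwE6.X φ q (sr 0)) = q := by
    rw [cX, if_pos (Or.inl rfl), pow_one]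
  obtain ⟨hpσ, hlσ, h2S⟩ := mem_of_two R hc (j := 0) (k := 2) (by decide) (by decide) hl (by rw [h0]; exact hd) hpl
  refine false_of_casc R ?_ (Nodes.RGDTwE6.G1_eq_top cs hφ hqq) hc hpσ hl hlσ h2S ?_
    (casc_of_tab (V chevE6 J) (fun z hz => (foldData.isRoot_iff (cs := cs) (h := isCartan)
      Nodes.RGDTwE6.hp.checked (fun i _ hr => wp_lt Nodes.RGDTwE6.hp (J i) hr) z).1 hz) TE6.w (fun _ => 1) TE6.fr TE6.cf
      TE6.hfr TE6.hcf TE6.pos TE6.full TE6.orth TE6.tri fun k => ?_)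
  · rw [eq_top_iff, ← Nodes.RGDTwE6.G1_eq_top cs hφ hqq]
    exact RGD.Sup_le fun x hx => X_le_GG hx
  · refine H554.LieTw.sq_of_simple R ?_
    intro i
    rw [cX i]
    split_ifs
    · rw [pow_one, h1]; ring
    · rw [Nat.cast_pow, h1]; ring
  · obtain ⟨h2, h3, h4⟩ := TE6.hidx k
    rw [← h2, card_X hφ hqq hq.one_lt hK cs h4, h3, pow_one, h1]

end Cfsg.Agent.H581.RowsG
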